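import Cfsg.Agent.R2.H28.SL2.FinCf
import Cfsg.Agent.R2.H28.SL2.Typ

/-!
# The type kills, `p ≥ 5` (helper28): preparations

`Lc` : the local statements (L2, L4, L6, L8, L11, L22) about the socle of `V`; consequences in terms of types.
-/

set_option autoImplicit false
set_option linter.unusedSectionVars false

namespace Cfsg.Agent.R2.H28.SL2

open Matrix Cfsg.Agent.H943.SL2Rel Cfsg.Agent.H943.SL2Mod Cfsg.Agent.H943.RepAdd
open Cfsg.Agent.R2.SL2 (typ tyl coe_tyl typ_step typ_zero listE6 tyl_eq_nil mem_typ tyl_one tyl_two)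

universe u v w

/-- digits occur in the type -/
theorem digit_mem_typ {p : ℕ} [Fact p.Prime] (l : ℕ) : ∀ b : ℕ, b / p ^ l % p ≠ 0 → b / p ^ l % p ∈ typ p b := by
  have hp : p.Prime := Fact.out
  induction l with
  | zero =>
    intro b hb
    rw [pow_zero, Nat.div_one] at hb ⊢
    have hb0 : b ≠ 0 := by
      rintro rfl
      exact hb (Nat.zero_mod p)
    rw [typ_step hp.one_lt hb0, if_neg hb]
    exact Multiset.mem_add.2 (Or.inl (Multiset.mem_singleton_self _))
  | succ l ih =>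
    intro b hb
    rw [digit_shift] at hb ⊢
    have hb0 : b ≠ 0 := by
      rintro rfl
      rw [Nat.zero_div, Nat.zero_div, Nat.zero_mod] at hb
      exact hb rfl
    rw [typ_step hp.one_lt hb0]
    exact Multiset.mem_add.2 (Or.inr (ih _ hb))

theorem count_le_map {α β : Type*} [DecidableEq α] [DecidableEq β] (f : α → β) (s : Multiset α) (c : α) :
    s.count c ≤ (s.map f).count (f c) := by
  rw [Multiset.count_map, Multiset.count_eq_card_filter_eq]
  refine Multiset.card_le_card (Multiset.monotone_filter_right _ fun x hx => ?_)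
  rw [← hx]

theorem digit_le_of_tyl {p : ℕ} [Fact p.Prime] {b N : ℕ} (h : ∀ d ∈ tyl p b, d ≤ N) (l : ℕ) : b / p ^ l % p ≤ N := by
  by_cases h0 : b / p ^ l % p = 0
  · rw [h0]
    exact Nat.zero_le _
  · refine h _ ?_
    have h1 := digit_mem_typ l b h0
    rw [← coe_tyl] at h1
    exact h1

theorem pos_of_single {p a n i : ℕ} (hn : 0 < n) (h : n * p ^ i < p ^ a) (hp : 1 < p) : i < a := by
  by_contra hc
  have h1 : p ^ a ≤ p ^ i := Nat.pow_le_pow_right (by omega) (by omega)
  have h2 : p ^ i ≤ n * p ^ i := Nat.le_mul_of_pos_left _ hn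
  omega

theorem tyl_single_inv {p a : ℕ} [Fact p.Prime] {b n : ℕ} (h : tyl p b = [n]) (hb : b < p ^ a) (hn : 0 < n) :
    ∃ i < a, b = n * p ^ i := by
  have hp : p.Prime := Fact.out
  obtain ⟨i, rfl⟩ := tyl_one h
  exact ⟨i, pos_of_single hn hb hp.one_lt, rfl⟩

theorem tyl_pair_inv {p a : ℕ} [Fact p.Prime] {b n m : ℕ} (h : tyl p b = [n, m]) (hb : b < p ^ a) (hn : 0 < n)
    (hm : 0 < m) : ∃ i < a, ∃ j < a, i ≠ j ∧ b = n * p ^ i + m * p ^ j := by
  have hp : p.Prime := Fact.out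
  obtain ⟨i, j, hij, rfl⟩ := tyl_two h
  exact ⟨i, pos_of_single hn (by omega) hp.one_lt, j, pos_of_single hm (by omega) hp.one_lt, hij, rfl⟩

variable {k : Type u} [Field k] [DecidableEq k] {F : Type w} [Field F] [Fintype F] [DecidableEq F] (ι : F →+* k)
variable (p : ℕ) [Fact p.Prime] [CharP k p] [CharP F p] [IsAlgClosed k]

/-- **the local statements** -/
structure Lc (a : ℕ) {V : Type v} [AddCommGroup V] [Module k V] [FiniteDimensional k V]
    (ρ : Representation k (SpecialLinearGroup (Fin 2) F) V) {V' : Type v} [AddCommGroup V'] [Module k V']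
    [FiniteDimensional k V'] (ρ' : Representation k (SpecialLinearGroup (Fin 2) F) V') : Prop where
  n2 : ∀ i < a, ¬ InSoc ι p ρ (2 * p ^ i)
  n11 : ∀ i < a, ∀ j < a, i ≠ j → ¬ InSoc ι p ρ (p ^ i + p ^ j)
  l4 : ∀ i < a, InSoc ι p ρ (4 * p ^ i) → (11 ≤ p ∧ 8 * p ^ i ∈ cf (Sy.{u, v, w} ι p) ρ) ∨
    (p = 7 ∧ p ^ i + p ^ ((i + 1) % a) ∈ cf (Sy.{u, v, w} ι p) ρ) ∨
    (p = 5 ∧ 3 * p ^ i + p ^ ((i + 1) % a) ∈ cf (Sy.{u, v, w} ι p) ρ)
  l6 : ∀ i < a, InSoc ι p ρ (6 * p ^ i) → ∃ c ∈ sqs p a i 6, c ≠ 0 ∧ InSoc ι p ρ' c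
  l8 : (∀ c ∈ cf (Sy.{u, v, w} ι p) ρ, tyl p c = [8] ∨ tyl p c = [2, 2]) → ∀ i < a, ¬ InSoc ι p ρ (8 * p ^ i)
  l22 : ∀ i < a, ∀ j < a, i ≠ j → ∀ (X : Submodule k V) (hX : ∀ g, ∀ x ∈ X, ρ g x ∈ X),
    IsV ι p (subRep ρ X hX) (2 * p ^ i + 2 * p ^ j) → ¬ InSoc ι p ρ' (4 * p ^ i) → ¬ InSoc ι p ρ' (4 * p ^ j) →
    ∃ (K : Submodule k V) (_ : ∀ g, ∀ x ∈ K, ρ g x ∈ K), IsCompl X K

variable {a : ℕ} (hF : Fintype.card F = p ^ a)
variable {V : Type v} [AddCommGroup V] [Module k V] [FiniteDimensional k V]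
  {ρ : Representation k (SpecialLinearGroup (Fin 2) F) V} {V' : Type v} [AddCommGroup V'] [Module k V']
  [FiniteDimensional k V'] {ρ' : Representation k (SpecialLinearGroup (Fin 2) F) V'} {P : V →ₗ[k] V' →ₗ[k] k}
  {W : List (List ℕ)}

section Soc

variable (hw : (W : Multiset (List ℕ)) = (cf (Sy.{u, v, w} ι p) ρ).map (tyl p))

include hw in
theorem cf_typ_mem {c : ℕ} (hc : c ∈ cf (Sy.{u, v, w} ι p) ρ) : tyl p c ∈ W := by
  have h1 : tyl p c ∈ (W : Multiset (List ℕ)) := by
    rw [hw]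
    exact Multiset.mem_map_of_mem _ hc
  exact h1

variable (L : Lc.{u, v, w} ι p a ρ ρ') (L' : Lc.{u, v, w} ι p a ρ' ρ)
  (hw' : (W : Multiset (List ℕ)) = (cf (Sy.{u, v, w} ι p) ρ').map (tyl p))

include L hF in
theorem soc_ne_2 {c : ℕ} (hc : InSoc ι p ρ c) : tyl p c ≠ [2] := by
  intro h
  obtain ⟨i, hi, rfl⟩ := tyl_single_inv h (cf_lt ι p hF ρ c hc.mem_cf) (by norm_num)
  exact L.n2 i hi hc

include L hF in
theorem soc_ne_11 {c : ℕ} (hc : InSoc ι p ρ c) : tyl p c ≠ [1, 1] := by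
  intro h
  obtain ⟨i, hi, j, hj, hij, rfl⟩ := tyl_pair_inv h (cf_lt ι p hF ρ c hc.mem_cf) (by norm_num) (by norm_num)
  rw [one_mul, one_mul] at hc
  exact L.n11 i hi j hj hij hc

include L hF hw in
theorem soc_4 (hq9 : 9 ≤ p ^ a) {c : ℕ} (hc : InSoc ι p ρ c) (h : tyl p c = [4]) : (11 ≤ p ∧ [8] ∈ W) ∨
    (p = 7 ∧ [1, 1] ∈ W) ∨ (p = 5 ∧ [1, 3] ∈ W) := by
  obtain ⟨i, hi, rfl⟩ := tyl_single_inv h (cf_lt ι p hF ρ c hc.mem_cf) (by norm_num)
  have ha : p < 9 → 2 ≤ a := by
    intro h9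
    by_contra hc
    have ha1 : a = 1 := by omega
    rw [ha1, pow_one] at hq9
    omega
  rcases L.l4 i hi hc with ⟨h1, h2⟩ | ⟨h1, h2⟩ | ⟨h1, h2⟩
  · left
    have h3 := cf_typ_mem ι p hw h2
    rw [tyl_single (by norm_num) (by omega)] at h3
    exact ⟨h1, h3⟩
  · right; left
    have h3 := cf_typ_mem ι p hw h2
    have h4 := tyl_pair (p := p) (n := 1) (m := 1) (by norm_num) (by omega) (by norm_num) (by omega)
      (succ_mod_ne (ha (by omega)) hi)
    rw [one_mul, one_mul] at h4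
    rw [h4] at h3
    exact ⟨h1, h3⟩
  · right; right
    have h3 := cf_typ_mem ι p hw h2
    have h4 := tyl_pair' (p := p) (n := 1) (m := 3) (by norm_num) (by omega) (by norm_num) (by omega)
      (succ_mod_ne (ha (by omega)) hi)
    rw [one_mul] at h4
    rw [h4] at h3
    exact ⟨h1, h3⟩

theorem lt_of_tyl {b n : ℕ} (h : n ∈ tyl p b) : n < p := (Cfsg.Agent.R2.SL2.tyl_mem h).2

include L L' hF hw hw' in
theorem soc_6 {c : ℕ} (hc : InSoc ι p ρ c) (h : tyl p c = [6]) :
    [12] ∈ W ∨ [8] ∈ W ∨ [4] ∈ W ∨ [1, 5] ∈ W ∨ (a = 1 ∧ p = 7) := by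
  have hp : p.Prime := Fact.out
  obtain ⟨i, hi, rfl⟩ := tyl_single_inv h (cf_lt ι p hF ρ c hc.mem_cf) (by norm_num)
  have h6 : 6 < p := lt_of_tyl p (b := 6 * p ^ i) (by rw [h]; exact List.mem_singleton_self _)
  obtain ⟨c, hcs, hc0, hc'⟩ := L.l6 i hi hc
  have hW := cf_typ_mem ι p hw' hc'.mem_cf
  have hn2 := soc_ne_2 ι p hF L' hc'
  have hn11 := soc_ne_11 ι p hF L' hc'
  have e : sqs p a i 6 = one p a i 12 + (one p a i 8 + (one p a i 4 + {0})) := rfl
  rw [e] at hcs
  simp only [Multiset.mem_add] at hcs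
  have hpc : p = 7 ∨ p = 11 ∨ 13 ≤ p := by
    by_contra hcon
    have h13 : p < 13 := by omega
    interval_cases p <;> first | omega | (norm_num at hp)
  have key4 : ∀ {c : ℕ}, c ∈ one p a i 4 → tyl p c = [4] := by
    intro c hc
    unfold one at hc
    rw [if_pos (by omega), Multiset.mem_singleton] at hc
    rw [hc, tyl_single (by norm_num) (by omega)]
  rcases hpc with h7 | h11 | h13
  · subst h7
    rcases hcs with hcs | hcs | hcs | hcs
    · by_cases ha1 : a = 1
      · exact Or.inr (Or.inr (Or.inr (Or.inr ⟨ha1, rfl⟩)))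
      · unfold one ov at hcs
        rw [if_neg (by norm_num), if_neg ha1] at hcs
        simp only [Multiset.insert_eq_cons, Multiset.mem_cons, Multiset.mem_singleton] at hcs
        rcases hcs with hcs | hcs
        · have h4 := tyl_pair' (p := 7) (n := 1) (m := 5) (by norm_num) (by omega) (by norm_num) (by omega)
            (succ_mod_ne (a := a) (i := i) (by omega) hi)
          rw [one_mul] at h4
          norm_num at hcs
          rw [← hcs] at h4
          rw [h4] at hW
          exact Or.inr (Or.inr (Or.inr (Or.inl hW)))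
        · norm_num at hcs
          exact absurd hcs hc0
    · by_cases ha1 : a = 1
      · exact Or.inr (Or.inr (Or.inr (Or.inr ⟨ha1, rfl⟩)))
      · unfold one ov at hcs
        rw [if_neg (by norm_num), if_neg ha1] at hcs
        simp only [Multiset.insert_eq_cons, Multiset.mem_cons, Multiset.mem_singleton] at hcs
        rcases hcs with hcs | hcs
        · have h4 := tyl_pair (p := 7) (n := 1) (m := 1) (by norm_num) (by omega) (by norm_num) (by omega)
            (succ_mod_ne (a := a) (i := i) (by omega) hi)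
          rw [one_mul, one_mul] at h4
          norm_num at hcs
          rw [← hcs] at h4
          exact absurd h4 hn11
        · norm_num at hcs
          rw [hcs, tyl_single (by norm_num) (by norm_num)] at hW
          exact Or.inr (Or.inr (Or.inl hW))
    · rw [key4 hcs] at hW
      exact Or.inr (Or.inr (Or.inl hW))
    · exact absurd (Multiset.mem_singleton.1 hcs) hc0
  · subst h11
    rcases hcs with hcs | hcs | hcs | hcs
    · by_cases ha1 : a = 1
      · unfold one ov at hcs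
        rw [if_neg (by norm_num), if_pos ha1, if_neg (by norm_num)] at hcs
        simp only [Multiset.insert_eq_cons, Multiset.mem_cons, Multiset.mem_singleton] at hcs
        norm_num at hcs
        rcases hcs with hcs | hcs | hcs
        · have h4 := tyl_single (p := 11) (n := 2) (by norm_num) (by norm_num) 0
          rw [pow_zero, mul_one] at h4
          exact absurd (by rw [hcs]; exact h4) hn2
        · exact absurd hcs hc0
        · have h4 := tyl_single (p := 11) (n := 8) (by norm_num) (by norm_num) 0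
          rw [pow_zero, mul_one] at h4
          rw [hcs, h4] at hW
          exact Or.inr (Or.inl hW)
      · unfold one ov at hcs
        rw [if_neg (by norm_num), if_neg ha1] at hcs
        simp only [Multiset.insert_eq_cons, Multiset.mem_cons, Multiset.mem_singleton] at hcs
        rcases hcs with hcs | hcs
        · have h4 := tyl_pair (p := 11) (n := 1) (m := 1) (by norm_num) (by omega) (by norm_num) (by omega)
            (succ_mod_ne (a := a) (i := i) (by omega) hi)
          rw [one_mul, one_mul] at h4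
          norm_num at hcs
          rw [← hcs] at h4
          exact absurd h4 hn11
        · norm_num at hcs
          rw [hcs, tyl_single (by norm_num) (by norm_num)] at hW
          exact Or.inr (Or.inl hW)
    · unfold one at hcs
      rw [if_pos (by norm_num), Multiset.mem_singleton] at hcs
      rw [hcs, tyl_single (by norm_num) (by norm_num)] at hW
      exact Or.inr (Or.inl hW)
    · rw [key4 hcs] at hW
      exact Or.inr (Or.inr (Or.inl hW))
    · exact absurd (Multiset.mem_singleton.1 hcs) hc0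
  · rcases hcs with hcs | hcs | hcs | hcs
    · unfold one at hcs
      rw [if_pos (by omega), Multiset.mem_singleton] at hcs
      rw [hcs, tyl_single (by norm_num) (by omega)] at hW
      exact Or.inl hW
    · unfold one at hcs
      rw [if_pos (by omega), Multiset.mem_singleton] at hcs
      rw [hcs, tyl_single (by norm_num) (by omega)] at hW
      exact Or.inr (Or.inl hW)
    · rw [key4 hcs] at hW
      exact Or.inr (Or.inr (Or.inl hW))
    · exact absurd (Multiset.mem_singleton.1 hcs) hc0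

include L hF hw in
theorem soc_8 {c : ℕ} (hc : InSoc ι p ρ c) (h : tyl p c = [8]) : ¬ ∀ t ∈ W, t = [8] ∨ t = [2, 2] := by
  intro hall
  obtain ⟨i, hi, rfl⟩ := tyl_single_inv h (cf_lt ι p hF ρ c hc.mem_cf) (by norm_num)
  exact L.l8 (fun c hc => hall _ (cf_typ_mem ι p hw hc)) i hi hc

/-- the conditions on the types of the factors of the socle -/
def Sty (p a : ℕ) (W : List (List ℕ)) (s : List ℕ) : Prop :=
  s ∈ W ∧ s ≠ [2] ∧ s ≠ [1, 1] ∧
  (s = [4] → (11 ≤ p ∧ [8] ∈ W) ∨ (p = 7 ∧ [1, 1] ∈ W) ∨ (p = 5 ∧ [1, 3] ∈ W)) ∧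
  (s = [6] → [12] ∈ W ∨ [8] ∈ W ∨ [4] ∈ W ∨ [1, 5] ∈ W ∨ (a = 1 ∧ p = 7)) ∧
  (s = [8] → ¬ ∀ t ∈ W, t = [8] ∨ t = [2, 2])

include L L' hF hw hw' in
theorem sty (hq9 : 9 ≤ p ^ a) {c : ℕ} (hc : InSoc ι p ρ c) : Sty p a W (tyl p c) :=
  ⟨cf_typ_mem ι p hw hc.mem_cf, soc_ne_2 ι p hF L hc, soc_ne_11 ι p hF L hc, soc_4 ι p hF hw L hq9 hc,
    soc_6 ι p hF hw L L' hw' hc, soc_8 ι p hF hw L hc⟩

include hw in
/-- `kill_typ` with types -/
theorem kt (D : Dul ρ ρ' P) (t : List ℕ) (h1 : (W : Multiset (List ℕ)).count t = 1) (hs : ∀ c, InSoc ι p ρ c → tyl p c = t)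
    (hs' : ∀ c, InSoc ι p ρ' c → tyl p c = t) (hc : 2 ≤ W.length) : False := by
  refine kill_typ ι p D (fun b => t = tyl p b) ?_ (fun c hc => (hs c hc).symm) (fun c hc => (hs' c hc).symm) ?_
  · rw [hw, Multiset.count_map] at h1
    rw [Multiset.countP_eq_card_filter]
    exact h1
  · have h2 : Multiset.card (W : Multiset (List ℕ)) = W.length := rfl
    rw [← h2, hw, Multiset.card_map] at hc
    exact hc

include L L' hF hw hw' in
theorem kt' (D : Dul ρ ρ' P) (hq9 : 9 ≤ p ^ a) (t : List ℕ) (h1 : (W : Multiset (List ℕ)).count t = 1)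
    (hs : ∀ s, Sty p a W s → s = t) (hc : 2 ≤ W.length) : False :=
  kt ι p hw D t h1 (fun _ hc => hs _ (sty ι p hF hw L L' hw' hq9 hc)) (fun _ hc => hs _ (sty ι p hF hw' L' L hw hq9 hc)) hc

end Soc

/-! ## EXTP for types -/

/-- the neighbour of a single label -/
def nb (p a d : ℕ) : ℕ := p ^ (Nat.log p d) + p ^ ((Nat.log p d + 1) % a)

theorem nb_single {n m : ℕ} (hn : 0 < n) (hnp : n < p) : nb p a (n * p ^ m) = p ^ m + p ^ ((m + 1) % a) := by
  have h1 : Nat.log p (n * p ^ m) = m := by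
    refine Nat.log_eq_of_pow_le_of_lt_pow (Nat.le_mul_of_pos_left _ hn) ?_
    rw [pow_succ, mul_comm]
    exact Nat.mul_lt_mul_of_pos_left hnp (Nat.pow_pos (by omega))
  unfold nb
  rw [h1]

include hF in
theorem extp_11 (D : Dul ρ ρ' P) (hp5 : 5 < p) (ha : 2 ≤ a) {i j : ℕ} (hi : i < a) (hj : j < a) (hij : i ≠ j)
    (h1 : ¬ InSoc ι p ρ (p ^ i + p ^ j)) (h2 : ¬ InSoc ι p ρ' (p ^ i + p ^ j))
    (hbm : p ^ i + p ^ j ∈ cf (Sy.{u, v, w} ι p) ρ)
    (hsm : ∀ d ∈ cf (Sy.{u, v, w} ι p) ρ, tyl p d = [p - 3] ∨ ∀ e ∈ tyl p d, e < p - 3) :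
    (cf (Sy.{u, v, w} ι p) ρ).count (p ^ i + p ^ j) <
      (((cf (Sy.{u, v, w} ι p) ρ).filter fun d => tyl p d = [p - 3]).map (nb p a)).count (p ^ i + p ^ j) := by
  have hp : p.Prime := Fact.out
  have hdig : ∀ d ∈ cf (Sy.{u, v, w} ι p) ρ, ∀ l, d / p ^ l % p ≤ p - 3 := by
    intro d hd l
    rcases hsm d hd with h | h
    · exact digit_le_of_tyl (by rw [h]; intro e he; exact (List.mem_singleton.1 he).le) l
    · exact digit_le_of_tyl (fun e he => (h e he).le) l
  have h0 : hb p a 0 = 0 := hb_eq_zero_of_digits hp (by omega) ha (Nat.pow_pos hp.pos) fun i _ => by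
    rw [Nat.zero_div, Nat.zero_mod]
    omega
  have h3 := extp ι p hF D h0 h1 h2 hbm fun d hd l _ => by
    have := hdig d hd l
    rw [dg_pair p hp.one_lt hij]
    split_ifs <;> omega
  refine lt_of_lt_of_le h3 ?_
  rw [Multiset.count_map, Multiset.filter_filter, ← Multiset.countP_eq_card_filter]
  have key : ∀ s : Multiset ℕ, (∀ d ∈ s, d ∈ cf (Sy.{u, v, w} ι p) ρ) →
      (s.map fun d => Hs p a (cg p a (p ^ i + p ^ j) d)).sum ≤
        s.countP fun d => p ^ i + p ^ j = nb p a d ∧ tyl p d = [p - 3] := by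
    intro s
    induction s using Multiset.induction with
    | empty => intro _; simp
    | cons d s ih =>
      intro hs
      have h4 := ih fun e he => hs e (Multiset.mem_cons_of_mem he)
      have hd := hs d (Multiset.mem_cons_self d s)
      rw [Multiset.map_cons, Multiset.sum_cons, Multiset.countP_cons]
      have h5 : Hs p a (cg p a (p ^ i + p ^ j) d) ≤ if p ^ i + p ^ j = nb p a d ∧ tyl p d = [p - 3] then 1 else 0 := by
        by_cases h6 : tyl p d = [p - 3]
        · obtain ⟨m, hm, rfl⟩ := tyl_single_inv h6 (cf_lt ι p hF ρ d hd) (by omega)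
          refine le_trans (Hs_pair_single p hp hp5 ha hij hi hj hm) ?_
          rw [nb_single p (by omega) (by omega)]
          split_ifs with h7 h8
          · exact le_rfl
          · exfalso
            apply h8
            refine ⟨?_, h6⟩
            rcases h7 with ⟨rfl, rfl⟩ | ⟨rfl, rfl⟩
            · rfl
            · exact add_comm _ _
          · exact Nat.zero_le _
          · exact Nat.zero_le _
        · have h7 := (hsm d hd).resolve_left h6
          rw [Hs_pair_small p hp (by omega) ha hij fun l _ => ?_]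
          · exact Nat.zero_le _
          · by_cases h8 : d / p ^ l % p = 0
            · omega
            · refine h7 _ ?_
              have h9 := digit_mem_typ l d h8
              rw [← coe_tyl] at h9
              exact h9
      omega
  exact key _ fun d hd => hd

include hF in
/-- **EXTP for the types** -/
theorem ext_types (D : Dul ρ ρ' P) (hp5 : 5 < p) (ha : 2 ≤ a) (L : Lc.{u, v, w} ι p a ρ ρ') (L' : Lc.{u, v, w} ι p a ρ' ρ)
    (hw : (W : Multiset (List ℕ)) = (cf (Sy.{u, v, w} ι p) ρ).map (tyl p))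
    (hsm : ∀ t ∈ W, t = [p - 3] ∨ ∀ e ∈ t, e < p - 3) (h11 : [1, 1] ∈ W) :
    (W : Multiset (List ℕ)).count [1, 1] < (W : Multiset (List ℕ)).count [p - 3] := by
  have hp : p.Prime := Fact.out
  set A := (cf (Sy.{u, v, w} ι p) ρ).filter fun d => [1, 1] = tyl p d with hA
  set C := (cf (Sy.{u, v, w} ι p) ρ).filter fun d => tyl p d = [p - 3] with hC
  have hA1 : (W : Multiset (List ℕ)).count [1, 1] = Multiset.card A := by rw [hw, Multiset.count_map]
  have hC1 : (W : Multiset (List ℕ)).count [p - 3] = Multiset.card C := by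
    rw [hw, Multiset.count_map, hC]
    congr 1
    exact Multiset.filter_congr fun _ _ => eq_comm
  have key : ∀ b ∈ A, A.count b < (C.map (nb p a)).count b := by
    intro b hb
    obtain ⟨hb1, hb2⟩ := Multiset.mem_filter.1 hb
    obtain ⟨i, hi, j, hj, hij, rfl⟩ := tyl_pair_inv hb2.symm (cf_lt ι p hF ρ b hb1) (by norm_num) (by norm_num)
    rw [one_mul, one_mul] at *
    refine lt_of_le_of_lt (Multiset.count_le_of_le _ (Multiset.filter_le _ _)) ?_
    exact extp_11 ι p hF D hp5 ha hi hj hij (L.n11 i hi j hj hij) (L'.n11 i hi j hj hij) hb1 fun d hd =>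
      hsm _ (cf_typ_mem ι p hw hd)
  have hA0 : A.toFinset.Nonempty := by
    have h1 : 0 < Multiset.card A := by
      rw [← hA1]
      exact Multiset.count_pos.2 h11
    obtain ⟨b, hb⟩ := Multiset.card_pos_iff_exists_mem.1 h1
    exact ⟨b, Multiset.mem_toFinset.2 hb⟩
  rw [hA1, hC1, ← Multiset.toFinset_sum_count_eq A, ← Multiset.card_map (nb p a) C]
  calc ∑ b ∈ A.toFinset, A.count b < ∑ b ∈ A.toFinset, (C.map (nb p a)).count b :=
        Finset.sum_lt_sum_of_nonempty hA0 fun b hb => key b (Multiset.mem_toFinset.1 hb)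
    _ ≤ ∑ b ∈ A.toFinset ∪ (C.map (nb p a)).toFinset, (C.map (nb p a)).count b :=
        Finset.sum_le_sum_of_subset Finset.subset_union_left
    _ = Multiset.card (C.map (nb p a)) := by
        symm
        exact (Multiset.sum_count_eq_card fun b hb => Finset.mem_union_right _ (Multiset.mem_toFinset.2 hb)).symm

/-! ## Complements -/

theorem compl_inSoc (D : Dul ρ ρ' P) {X K : Submodule k V} (hX : ∀ g, ∀ x ∈ X, ρ g x ∈ X) (hK : ∀ g, ∀ x ∈ K, ρ g x ∈ K)
    (h : IsCompl X K) {b : ℕ} (hb : IsV ι p (subRep ρ X hX) b) : InSoc ι p ρ' b := by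
  obtain ⟨B', D', -⟩ := D.quot hK
  obtain ⟨e, he⟩ := eqv_of_compl hK hX h.symm
  exact ⟨orth P K, D.orth_inv hK, IsV.dual ι p (IsV.iso ι p e he hb) D'⟩

theorem inSoc_quot {X K : Submodule k V} (hX : ∀ g, ∀ x ∈ X, ρ g x ∈ X) (hK : ∀ g, ∀ x ∈ K, ρ g x ∈ K)
    (h : IsCompl X K) {b : ℕ} (hb : InSoc ι p (quotRep ρ X hX) b) : InSoc ι p (subRep ρ K hK) b := by
  obtain ⟨e, he⟩ := eqv_of_compl hX hK h
  refine hb.iso ι p (e.symm : (V ⧸ X) →ₗ[k] K) (fun g x => ?_) e.symm.injective
  show e.symm _ = subRep ρ K hK g (e.symm x)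
  rw [LinearEquiv.symm_apply_eq, he, LinearEquiv.apply_symm_apply]

theorem uniq_typ (hw : (W : Multiset (List ℕ)) = (cf (Sy.{u, v, w} ι p) ρ).map (tyl p)) {t : List ℕ}
    (h1 : (W : Multiset (List ℕ)).count t = 1) {b c : ℕ} (hb : b ∈ cf (Sy.{u, v, w} ι p) ρ)
    (hc : c ∈ cf (Sy.{u, v, w} ι p) ρ) (hbt : tyl p b = t) (hct : tyl p c = t) :
    b = c ∧ (cf (Sy.{u, v, w} ι p) ρ).count b = 1 := by
  obtain ⟨s, hs⟩ := Multiset.exists_cons_of_mem hb
  rw [hw, hs, Multiset.map_cons, hbt, Multiset.count_cons_self] at h1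
  have h2 : t ∉ s.map (tyl p) := by
    rw [← Multiset.count_eq_zero]
    omega
  have h3 : ∀ d ∈ s, tyl p d ≠ t := fun d hd h => h2 (by rw [← h]; exact Multiset.mem_map_of_mem _ hd)
  constructor
  · rw [hs] at hc
    rcases Multiset.mem_cons.1 hc with h | h
    · exact h.symm
    · exact absurd hct (h3 c h)
  · rw [hs, Multiset.count_cons_self, Multiset.count_eq_zero_of_notMem fun h => h3 b h hbt]

/-- the types of the factors of a complement -/
theorem compl_typ (hw : (W : Multiset (List ℕ)) = (cf (Sy.{u, v, w} ι p) ρ).map (tyl p)) {t : List ℕ}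
    (h1 : (W : Multiset (List ℕ)).count t = 1) {X K : Submodule k V} (hX : ∀ g, ∀ x ∈ X, ρ g x ∈ X)
    (hK : ∀ g, ∀ x ∈ K, ρ g x ∈ K)
    (h : IsCompl X K) {b : ℕ} (hb : IsV ι p (subRep ρ X hX) b) (hbt : tyl p b = t) {c : ℕ}
    (hc : c ∈ cf (Sy.{u, v, w} ι p) (subRep ρ K hK)) : tyl p c ≠ t := by
  intro hct
  have h2 := cf_sup (S := Sy.{u, v, w} ι p) hX hK h
  rw [hw, h2, cf_irr (Sy.{u, v, w} ι p) hb, Multiset.map_add, Multiset.count_add, Multiset.map_singleton, hbt,
    Multiset.count_singleton_self] at h1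
  have h3 : 0 < ((cf (Sy.{u, v, w} ι p) (subRep ρ K hK)).map (tyl p)).count t := by
    rw [← hct]
    exact Multiset.count_pos.2 (Multiset.mem_map_of_mem _ hc)
  omega

end Cfsg.Agent.R2.H28.SL2
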