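import Cfsg.Agent.R2.H28.SL2.Form2
import Cfsg.Agent.R2.H28.SL2.L22
import Cfsg.Agent.R2.H28.SL2.TK

/-!
# L8 (helper28)

`Fra.l8` : if all factors of `V` have the types `[8]` and `[2, 2]` then `V_{8 p^i}` is not a submodule.
-/

set_option autoImplicit false
set_option linter.unusedSectionVars false

namespace Cfsg.Agent.R2.H28.SL2

open Matrix Cfsg.Agent.H943.SL2Rel Cfsg.Agent.H943.SL2Mod Cfsg.Agent.H943.RepAdd
open Cfsg.Lie
open Cfsg.Agent.ChevalleyStructure Cfsg.Agent.ChevalleyStructure.E6Form.Cubic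
  Cfsg.Agent.ChevalleyStructure.E6Form.Table
open Cfsg.Agent.ChevalleyStructure.E6Min.Basic (Zgrp)
open Cfsg.Agent.H952.F4 (sh cr tf)
open Cfsg.Agent.H952.F4.Jord
open Cfsg.Agent.H163.E6 (V V')
open Cfsg.Agent.H163.E6.Act
open Cfsg.Agent.R2.GEO (Pair crB crB_apply tfB tfB_apply)
open Cfsg.Agent.R2.SL2 (typ tyl coe_tyl typ_step typ_zero listE6 tyl_eq_nil mem_typ tyl_one tyl_two)
open scoped TensorProduct

universe u v w

/-- the space spanned by the products -/
def Im {k : Type u} [Field k] (X : Submodule k (I27 → k)) : Submodule k (I27 → k) :=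
  Submodule.span k {z | ∃ x ∈ X, ∃ y ∈ X, z = cr x y}

theorem cr_mem_Im {k : Type u} [Field k] {X : Submodule k (I27 → k)} {x y : I27 → k} (hx : x ∈ X) (hy : y ∈ X) :
    cr x y ∈ Im X := Submodule.subset_span ⟨x, hx, y, hy, rfl⟩

variable {k : Type u} [Field k] [DecidableEq k] [IsAlgClosed k] {K : Type w} [Field K] [Fintype K] [DecidableEq K]
  (ι : K →+* k) {p a : ℕ} [Fact p.Prime] [CharP k p] [CharP K p]
  {ψ : SpecialLinearGroup (Fin 2) K →* ↥(Zgrp k)} {ρ ρ' : Representation k ↥(Zgrp k) (I27 → k)}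

theorem Im_inv (f : Fra p a ψ ρ ρ') {X : Submodule k (I27 → k)} (hX : ∀ g, ∀ x ∈ X, Rr ρ ψ g x ∈ X) :
    ∀ g, ∀ y ∈ Im X, Rr ρ' ψ g y ∈ Im X := by
  intro g y hy
  unfold Im at hy
  induction hy using Submodule.span_induction with
  | mem y hy =>
    obtain ⟨x, hx, z, hz, rfl⟩ := hy
    show ρ' (ψ g) (cr _ _) ∈ _
    rw [← pair_cr f.pair]
    exact cr_mem_Im (hX g _ hx) (hX g _ hz)
  | zero => rw [map_zero]; exact Submodule.zero_mem _
  | add y z _ _ hy hz => rw [map_add]; exact Submodule.add_mem _ hy hz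
  | smul c y _ hy => rw [map_smul]; exact Submodule.smul_mem _ _ hy

/-- the product map -/
def crI (X : Submodule k (I27 → k)) : X →ₗ[k] X →ₗ[k] (Im X) := LinearMap.mk₂ k
  (fun x y => ⟨cr (x : I27 → k) y, cr_mem_Im x.2 y.2⟩)
  (fun _ _ _ => Subtype.ext (cr_add_left _ _ _)) (fun _ _ _ => Subtype.ext (cr_smul_left _ _ _))
  (fun _ _ _ => Subtype.ext (cr_add_right _ _ _)) (fun _ _ _ => Subtype.ext (cr_smul_right _ _ _))

theorem coe_crI (X : Submodule k (I27 → k)) (x y : X) : ((crI X x y : Im X) : I27 → k) = cr (x : I27 → k) y := rfl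

theorem crI_equiv (f : Fra p a ψ ρ ρ') {X : Submodule k (I27 → k)} (hX : ∀ g, ∀ x ∈ X, Rr ρ ψ g x ∈ X) (g) (x y : X) :
    crI X (subRep (Rr ρ ψ) X hX g x) (subRep (Rr ρ ψ) X hX g y) = subRep (Rr ρ' ψ) (Im X) (Im_inv f hX) g (crI X x y) :=
  Subtype.ext (pair_cr f.pair (ψ g) _ _)

theorem crI_span (X : Submodule k (I27 → k)) (f : Im X →ₗ[k] k) (h : ∀ x y, f (crI X x y) = 0) : f = 0 := by
  ext ⟨y, hy⟩
  rw [LinearMap.zero_apply]
  have key : ∀ y (hy : y ∈ Im X), f ⟨y, hy⟩ = 0 := by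
    intro y hy
    have h1 : y ∈ (LinearMap.ker f).map (Im X).subtype := by
      have h2 : Im X ≤ (LinearMap.ker f).map (Im X).subtype := by
        refine Submodule.span_le.2 ?_
        rintro _ ⟨x, hx, z, hz, rfl⟩
        exact ⟨crI X ⟨x, hx⟩ ⟨z, hz⟩, h _ _, rfl⟩
      exact h2 hy
    obtain ⟨z, hz, e⟩ := h1
    have e' : z = ⟨y, hy⟩ := Subtype.ext e
    rw [← e']
    exact hz
  exact key y hy

/-- the factors of the span of the products -/
theorem cf_Im (f : Fra p a ψ ρ ρ') {X : Submodule k (I27 → k)} (hX : ∀ g, ∀ x ∈ X, Rr ρ ψ g x ∈ X) :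
    cf (Sy.{u, u, w} ι p) (subRep (Rr ρ' ψ) (Im X) (Im_inv f hX)) ≤ cf (Sy.{u, u, w} ι p) (Sq (subRep (Rr ρ ψ) X hX)) := by
  obtain ⟨T, hT1, hT2, -⟩ := exists_sqL (σ := subRep (Rr ρ ψ) X hX) (ρ := subRep (Rr ρ' ψ) (Im X) (Im_inv f hX)) (crI X)
    (fun x y => Subtype.ext (cr_comm _ _)) (crI_equiv f hX)
  have hs : LinearMap.range T = ⊤ := by
    by_contra h0
    obtain ⟨g, hg0, hg⟩ := Submodule.exists_le_ker_of_lt_top (LinearMap.range T) (lt_top_iff_ne_top.2 h0)
    apply hg0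
    refine crI_span X g fun x y => ?_
    rw [← hT1]
    exact hg ⟨_, rfl⟩
  obtain ⟨hk, hr, h1, h2⟩ := cf_exact (Sy.{u, u, w} ι p) (Sq (subRep (Rr ρ ψ) X hX)) (subRep (Rr ρ' ψ) (Im X) (Im_inv f hX)) T hT2
  have h4 : ∀ (R : Submodule k (Im X)) (hR : ∀ g, ∀ x ∈ R, subRep (Rr ρ' ψ) (Im X) (Im_inv f hX) g x ∈ R), R = ⊤ →
      cf (V := ↥R) (Sy.{u, u, w} ι p) (subRep (subRep (Rr ρ' ψ) (Im X) (Im_inv f hX)) R hR) =
      cf (Sy.{u, u, w} ι p) (subRep (Rr ρ' ψ) (Im X) (Im_inv f hX)) := by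
    rintro R hR rfl
    exact cf_iso _ ⟨Submodule.topEquiv, fun _ _ => rfl⟩
  rw [h1, h4 _ hr hs]
  exact Multiset.le_add_left _ _

theorem Im_ne_bot (f : Fra p a ψ ρ ρ') {X : Submodule k (I27 → k)} (h : ¬ ∀ x ∈ X, sh x = 0) : Im X ≠ ⊥ := by
  have h2 : (2 : k) ≠ 0 := two_ne f.odd
  intro h0
  apply h
  intro x hx
  have h1 := cr_mem_Im hx hx
  rw [h0, Submodule.mem_bot, cr_self] at h1
  exact (smul_eq_zero.1 h1).resolve_left h2

/-- **the span of the products is irreducible** if all its factors are `V_{n p^i}` -/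
theorem Im_irr (f : Fra p a ψ ρ ρ') {X : Submodule k (I27 → k)} (hX : ∀ g, ∀ x ∈ X, Rr ρ ψ g x ∈ X) {n i m : ℕ}
    (hb : IsV ι p (subRep (Rr ρ ψ) X hX) (n * p ^ i)) (hts : ¬ ∀ x ∈ X, sh x = 0)
    (hn : 1 ≤ n) (hnp : n < p) (hN : n + 1 < Fintype.card K) (hm : n = 2 * m)
    (hall : ∀ c ∈ cf (Sy.{u, u, w} ι p) (subRep (Rr ρ' ψ) (Im X) (Im_inv f hX)), c = n * p ^ i)
    (hlift : ∀ l < a, (n * p ^ i) / p ^ l % p + 1 < p →
      (n * p ^ i + 2 * en p (n * p ^ i) l) % (p ^ a - 1) ≠ (n * p ^ i) % (p ^ a - 1)) :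
    IsV ι p (subRep (Rr ρ' ψ) (Im X) (Im_inv f hX)) (n * p ^ i) := by
  have D := f.dul
  obtain ⟨B₁, D₁, -⟩ := D.flip.sub (Im_inv f hX)
  obtain ⟨v, hv⟩ := hb.basS ι p hnp
  have hI0 := Im_ne_bot f hts
  have hnt : Nontrivial ((I27 → k) ⧸ orth (tfB k).flip (Im X)) := by
    have h1 := D₁.finrank_eq
    have h2 : 0 < Module.finrank k (Im X) := by
      rw [Nat.pos_iff_ne_zero, Ne, Submodule.finrank_eq_zero]
      exact hI0
    exact Module.nontrivial_of_finrank_pos (R := k) (by omega)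
  have h1 := irr_of_dual ι p f.card D₁.flip hv (crI_equiv f hX) (crI_span X) hn hnp hN hm (fun c hc => by
    rw [cf_dual ι p D₁] at hc
    exact hall c hc) hlift
  exact IsV.dual ι p h1 D₁.flip

/-- **the products in `V_{8 p^i}`** -/
theorem prod8 {X : Type*} [AddCommGroup X] [Module k X] {I : Type*} [AddCommGroup I] [Module k I]
    {σ : Representation k (SpecialLinearGroup (Fin 2) K) X} {τ : Representation k (SpecialLinearGroup (Fin 2) K) I}
    {i : ℕ} {v : ℕ → X} {v' : ℕ → I} {β : X →ₗ[k] X →ₗ[k] I} (hv : BasS ι p σ 8 i v) (hv' : BasS ι p τ 8 i v')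
    (he : ∀ g x y, β (σ g x) (σ g y) = τ g (β x y)) (hsp : ∀ f : I →ₗ[k] k, (∀ x y, f (β x y) = 0) → f = 0)
    (hp8 : 8 < p) (hN : 9 < Fintype.card K) :
    (∃ c : k, c ≠ 0 ∧ β (v 3) (v 3) = c • v' 2) ∧ ∃ c : k, c ≠ 0 ∧ β (v 2) (v 2) = c • v' 0 := by
  obtain ⟨F', hF1, hF2⟩ := basS_coord ι p hv'
  have hf : ∀ s ≤ 8, F' 0 (v' s) = if s = 0 then 1 else 0 := fun s hs => hF2 0 (by norm_num) s hs
  obtain ⟨hu, hh⟩ := basS_coord_u ι p hv' hf
  obtain ⟨h1, h2⟩ := form_det ι p hv he (by norm_num) hp8 hN (m := 4) rfl (F' 0) hu hh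
  obtain ⟨-, h3⟩ := basS_form ι p hv he (by norm_num) hp8 (by omega) (F' 0) hu
  have h4 : F' 0 (β (v 0) (v 4)) ≠ 0 := by
    intro h0
    have h5 := hsp _ (h2 h0)
    have h6 := hf 0 (by norm_num)
    rw [h5, if_pos rfl, LinearMap.zero_apply] at h6
    exact zero_ne_one h6
  have hne : ∀ r : ℕ, 0 < r → r ≤ 8 → (r : k) ≠ 0 := by
    intro r hr hrn h2
    rw [CharP.cast_eq_zero_iff k p] at h2
    have := Nat.le_of_dvd hr h2
    omega
  have e1 := h3 0 (by norm_num) 3 (by norm_num)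
  have e2 := h3 1 (by norm_num) 2 (by norm_num)
  have e3 := h3 2 (by norm_num) 1 (by norm_num)
  norm_num at e1 e2 e3
  have n8 : (8 : k) ≠ 0 := by exact_mod_cast hne 8 (by norm_num) (by norm_num)
  have n7 : (7 : k) ≠ 0 := by exact_mod_cast hne 7 (by norm_num) (by norm_num)
  have n6 : (6 : k) ≠ 0 := by exact_mod_cast hne 6 (by norm_num) (by norm_num)
  have n5 : (5 : k) ≠ 0 := by exact_mod_cast hne 5 (by norm_num) (by norm_num)
  have n2 : (2 : k) ≠ 0 := by exact_mod_cast hne 2 (by norm_num) (by norm_num)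
  have n3 : (3 : k) ≠ 0 := by exact_mod_cast hne 3 (by norm_num) (by norm_num)
  have h22 : F' 0 (β (v 2) (v 2)) ≠ 0 := by
    intro h0
    rw [h0, mul_zero, zero_add] at e2
    have h5 := (mul_eq_zero.1 e2).resolve_left n6
    rw [h5, mul_zero, zero_add] at e1
    exact h4 ((mul_eq_zero.1 e1).resolve_left n5)
  have p33 := basS_prod ι p hv hv' he (by omega) hf h1 (s := 3) (t := 3) (by norm_num) (by norm_num) (by norm_num) (by norm_num)
  have p22 := basS_prod ι p hv hv' he (by omega) hf h1 (s := 2) (t := 2) (by norm_num) (by norm_num) (by norm_num) (by norm_num)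
  constructor
  · refine ⟨_, ?_, p33⟩
    simp only [Finset.sum_range_succ, Finset.sum_range_zero]
    norm_num [Nat.choose]
    intro h0
    apply h22
    have h5 : (2 : k) * ((2 : k) * F' 0 (β (v 2) (v 2))) = 0 := by
      linear_combination 2 * h0 - e2 - e3
    exact (mul_eq_zero.1 ((mul_eq_zero.1 h5).resolve_left n2)).resolve_left n2
  · refine ⟨_, ?_, p22⟩
    simp only [Finset.sum_range_succ, Finset.sum_range_zero]
    norm_num [Nat.choose]
    exact h22

/-- the labels in `S² V_{8 p^i}` of the types `[8]`, `[2, 2]` -/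
theorem label8 {i c : ℕ} (hi : i < a) (hp8 : 8 < p) (hc : c ∈ sqs p a i 8) (ht : tyl p c = [8] ∨ tyl p c = [2, 2]) :
    c = 8 * p ^ i := by
  have hp : p.Prime := Fact.out
  have e : sqs p a i 8 = one p a i 16 + (one p a i 12 + (one p a i 8 + (one p a i 4 + {0}))) := rfl
  rw [e] at hc
  simp only [Multiset.mem_add] at hc
  have hs : ∀ {n j : ℕ}, 0 < n → n < p → n ≠ 8 → tyl p (n * p ^ j) = [8] ∨ tyl p (n * p ^ j) = [2, 2] → False := by
    intro n j h0 hn h8 h
    rw [tyl_single h0 hn] at h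
    rcases h with h | h
    · exact h8 (List.cons.inj h).1
    · simp at h
  have hs0 : ∀ {n : ℕ}, 0 < n → n < p → n ≠ 8 → tyl p n = [8] ∨ tyl p n = [2, 2] → False := by
    intro n h0 hn h8 h
    have h1 := hs (j := 0) h0 hn h8
    rw [pow_zero, mul_one] at h1
    exact h1 h
  have h00 : tyl p 0 = [8] ∨ tyl p 0 = [2, 2] → False := by
    intro h
    rw [tyl_eq_nil.2 rfl] at h
    simp at h
  have hpr : ∀ {n : ℕ}, 2 ≤ a → 1 ≤ n → n < p → tyl p (n * p ^ i + p ^ ((i + 1) % a)) = [8] ∨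
      tyl p (n * p ^ i + p ^ ((i + 1) % a)) = [2, 2] → False := by
    intro n ha h1 hn h
    have h2 := tyl_pair' (p := p) (n := 1) (m := n) (by norm_num) (by omega) h1 hn (succ_mod_ne ha hi)
    rw [one_mul] at h2
    rw [h2] at h
    simp at h
  have hpc : p = 11 ∨ p = 13 ∨ 17 ≤ p := by
    by_contra hcon
    have h17 : p < 17 := by omega
    interval_cases p <;> first | omega | (norm_num at hp)
  have k4 : c ∈ one p a i 4 → c = 8 * p ^ i := by
    intro hc
    unfold one at hc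
    rw [if_pos (by omega), Multiset.mem_singleton] at hc
    rw [hc] at ht
    exact (hs (by norm_num) (by omega) (by norm_num) ht).elim
  have k8 : c ∈ one p a i 8 → c = 8 * p ^ i := by
    intro hc
    unfold one at hc
    rwa [if_pos (by omega), Multiset.mem_singleton] at hc
  have k0 : c ∈ ({0} : Multiset ℕ) → c = 8 * p ^ i := by
    intro hc
    rw [Multiset.mem_singleton] at hc
    rw [hc] at ht
    exact (h00 ht).elim
  have ha0 : a = 1 → i = 0 := by omega
  rcases hpc with h11 | h13 | h17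
  · subst h11
    rcases hc with hc | hc | hc | hc | hc
    · unfold one ov at hc
      rw [if_neg (by norm_num)] at hc
      split_ifs at hc with h1 h2
      · exact h2.elim
      · simp only [Multiset.insert_eq_cons, Multiset.mem_cons, Multiset.mem_singleton] at hc
        norm_num at hc
        rcases hc with rfl | rfl
        · exact (hs0 (by norm_num) (by norm_num) (by norm_num) ht).elim
        · exact (hs0 (by norm_num) (by norm_num) (by norm_num) ht).elim
      · simp only [Multiset.insert_eq_cons, Multiset.mem_cons, Multiset.mem_singleton] at hc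
        norm_num at hc
        rcases hc with rfl | rfl
        · exact (hpr (by omega) (by norm_num) (by norm_num) ht).elim
        · exact (hs (by norm_num) (by norm_num) (by norm_num) ht).elim
    · unfold one ov at hc
      rw [if_neg (by norm_num)] at hc
      split_ifs at hc with h1 h2
      · exact h2.elim
      · simp only [Multiset.insert_eq_cons, Multiset.mem_cons, Multiset.mem_singleton] at hc
        norm_num at hc
        rcases hc with rfl | rfl | rfl
        · exact (hs0 (by norm_num) (by norm_num) (by norm_num) ht).elim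
        · exact (h00 ht).elim
        · rw [ha0 h1, pow_zero, mul_one]
      · simp only [Multiset.insert_eq_cons, Multiset.mem_cons, Multiset.mem_singleton] at hc
        norm_num at hc
        rcases hc with rfl | rfl
        · have := hpr (n := 1) (by omega) (by norm_num) (by norm_num)
          rw [one_mul] at this
          exact (this ht).elim
        · rfl
    · exact k8 hc
    · exact k4 hc
    · exact k0 hc
  · subst h13
    rcases hc with hc | hc | hc | hc | hc
    · unfold one ov at hc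
      rw [if_neg (by norm_num)] at hc
      split_ifs at hc with h1 h2
      · exact h2.elim
      · simp only [Multiset.insert_eq_cons, Multiset.mem_cons, Multiset.mem_singleton] at hc
        norm_num at hc
        rcases hc with rfl | rfl | rfl
        · exact (hs0 (by norm_num) (by norm_num) (by norm_num) ht).elim
        · exact (hs0 (by norm_num) (by norm_num) (by norm_num) ht).elim
        · rw [ha0 h1, pow_zero, mul_one]
      · simp only [Multiset.insert_eq_cons, Multiset.mem_cons, Multiset.mem_singleton] at hc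
        norm_num at hc
        rcases hc with rfl | rfl
        · exact (hpr (by omega) (by norm_num) (by norm_num) ht).elim
        · rfl
    · unfold one at hc
      rw [if_pos (by norm_num), Multiset.mem_singleton] at hc
      rw [hc] at ht
      exact (hs (by norm_num) (by norm_num) (by norm_num) ht).elim
    · exact k8 hc
    · exact k4 hc
    · exact k0 hc
  · rcases hc with hc | hc | hc | hc | hc
    · unfold one at hc
      rw [if_pos (by omega), Multiset.mem_singleton] at hc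
      rw [hc] at ht
      exact (hs (by norm_num) (by omega) (by norm_num) ht).elim
    · unfold one at hc
      rw [if_pos (by omega), Multiset.mem_singleton] at hc
      rw [hc] at ht
      exact (hs (by norm_num) (by omega) (by norm_num) ht).elim
    · exact k8 hc
    · exact k4 hc
    · exact k0 hc

/-- the arithmetic condition for `8 p^i`, `p = 11, 13` -/
theorem lift8 {i : ℕ} (hp : p = 11 ∨ p = 13) : ∀ l < a, (8 * p ^ i) / p ^ l % p + 1 < p →
    (8 * p ^ i + 2 * en p (8 * p ^ i) l) % (p ^ a - 1) ≠ (8 * p ^ i) % (p ^ a - 1) := by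
  have hpp : p.Prime := Fact.out
  intro l hl _ h
  have h1 : p ^ a - 1 ∣ 2 * en p (8 * p ^ i) l := by
    have h2 : (8 * p ^ i + 2 * en p (8 * p ^ i) l) ≡ 8 * p ^ i + 0 [MOD (p ^ a - 1)] := h
    exact (Nat.modEq_zero_iff_dvd).1 (Nat.ModEq.add_left_cancel' _ h2)
  have h2 : en p (8 * p ^ i) l = (if l = i then 9 else 1) * p ^ l := by
    unfold en
    rw [dg_single hpp.one_lt (by omega)]
    split_ifs <;> rfl
  have h3 : Nat.Coprime (p ^ a - 1) (p ^ l) := by
    apply Nat.Coprime.pow_right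
    have h4 : Nat.Coprime (p ^ a - 1) (p ^ a) := by
      have h5 : 1 ≤ p ^ a := Nat.pow_pos hpp.pos
      have h6 := Nat.coprime_self_add_right (m := p ^ a - 1) (n := 1)
      rw [Nat.sub_add_cancel h5] at h6
      exact h6.2 (Nat.coprime_one_right _)
    exact Nat.Coprime.coprime_dvd_right (dvd_pow_self p (by omega)) h4
  rw [h2, ← mul_assoc] at h1
  have h4 := h3.dvd_of_dvd_mul_right h1
  have h5 : p ^ a - 1 ∣ 18 := by
    split_ifs at h4
    · exact h4
    · exact h4.trans (by norm_num)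
  have h6 := Nat.le_of_dvd (by norm_num) h5
  have h7 : a = 1 := by
    by_contra h8
    have h9 : 2 ≤ a := by omega
    have h10 : p ^ 2 ≤ p ^ a := Nat.pow_le_pow_right hpp.pos h9
    have h11 : 11 ^ 2 ≤ p ^ 2 := Nat.pow_le_pow_left (by omega) 2
    omega
  rw [h7, pow_one] at h5
  rcases hp with rfl | rfl <;> revert h5 <;> decide

/-- the product of a submodule `V_{8 p^i}` -/
theorem Fra.img8 (f : Fra p a ψ ρ ρ') (hp8 : 8 < p)
    (ht : ∀ c ∈ cf (Sy.{u, u, w} ι p) (Rr ρ ψ), tyl p c = [8] ∨ tyl p c = [2, 2]) {i : ℕ} (hi : i < a)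
    {X : Submodule k (I27 → k)} (hX : ∀ g, ∀ x ∈ X, Rr ρ ψ g x ∈ X) (hb : IsV ι p (subRep (Rr ρ ψ) X hX) (8 * p ^ i)) :
    IsV ι p (subRep (Rr ρ' ψ) (Im X) (Im_inv f hX)) (8 * p ^ i) := by
  have hp : p.Prime := Fact.out
  have hq : 11 ≤ Fintype.card K := by
    rw [f.card]
    have h1 : p ≤ p ^ a := Nat.le_self_pow (by omega) p
    by_contra hc
    have h9 : p = 9 ∨ p = 10 := by omega
    rcases h9 with rfl | rfl <;> revert hp <;> decide
  have hts : ¬ ∀ x ∈ X, sh x = 0 := by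
    intro h5
    obtain ⟨l, hl⟩ := f.ts_irr ι hX hb h5
    have h6 := hb.dim_single ι f.card (by omega)
    rw [hl] at hb
    have h7 := hb.dim_single ι f.card (by omega)
    omega
  have hle := cf_Im ι f hX
  rw [cf_sq_single ι p f.card hp8 hi hb] at hle
  have hall : ∀ c ∈ cf (Sy.{u, u, w} ι p) (subRep (Rr ρ' ψ) (Im X) (Im_inv f hX)), c = 8 * p ^ i := by
    intro c hc
    refine label8 hi hp8 (Multiset.mem_of_le hle hc) (ht c ?_)
    rw [← f.cf_eq ι]
    exact Multiset.mem_of_le (cf_sub_le _ _ _ _) hc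
  by_cases hp17 : 17 ≤ p
  · have h1 : cf (Sy.{u, u, w} ι p) (subRep (Rr ρ' ψ) (Im X) (Im_inv f hX)) = {8 * p ^ i} := by
      rw [Multiset.eq_replicate_card.2 hall]
      have h2 : Multiset.card (cf (Sy.{u, u, w} ι p) (subRep (Rr ρ' ψ) (Im X) (Im_inv f hX))) ≤ 1 := by
        have h3 := Multiset.count_le_of_le (8 * p ^ i) hle
        rw [Multiset.eq_replicate_card.2 hall, Multiset.count_replicate_self] at h3
        refine h3.trans ?_
        have hpi : 0 < p ^ i := Nat.pow_pos hp.pos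
        have e : sqs p a i 8 = {16 * p ^ i} + ({12 * p ^ i} + ({8 * p ^ i} + ({4 * p ^ i} + {0}))) := by
          have e1 : sqs p a i 8 = one p a i 16 + (one p a i 12 + (one p a i 8 + (one p a i 4 + {0}))) := rfl
          rw [e1]
          unfold one
          rw [if_pos (by omega), if_pos (by omega), if_pos (by omega), if_pos (by omega)]
        rw [e]
        simp only [Multiset.count_add, Multiset.count_singleton]
        split_ifs <;> omega
      have h3 : Multiset.card (cf (Sy.{u, u, w} ι p) (subRep (Rr ρ' ψ) (Im X) (Im_inv f hX))) ≠ 0 := by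
        intro h3
        have h4 := (Multiset.card_eq_zero.1 h3)
        have h5 := finrank_cf ι p _ _ (subRep (Rr ρ' ψ) (Im X) (Im_inv f hX)) le_rfl
        rw [h4, Multiset.map_zero, Multiset.sum_zero, Submodule.finrank_eq_zero] at h5
        exact Im_ne_bot f hts h5
      have h4 : Multiset.card (cf (Sy.{u, u, w} ι p) (subRep (Rr ρ' ψ) (Im X) (Im_inv f hX))) = 1 := by omega
      rw [h4]
      rfl
    exact irr_of_cf _ h1
  · have hpc : p = 11 ∨ p = 13 := by
      by_contra hcon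
      have h17 : p < 17 := by omega
      interval_cases p <;> first | omega | (norm_num at hp)
    exact Im_irr ι f hX hb hts (by norm_num) hp8 (by omega) (m := 4) rfl hall (lift8 hpc)

/-- **L8** -/
theorem Fra.l8 (f : Fra p a ψ ρ ρ') (hp8 : 8 < p)
    (ht : ∀ c ∈ cf (Sy.{u, u, w} ι p) (Rr ρ ψ), tyl p c = [8] ∨ tyl p c = [2, 2]) {i : ℕ} (hi : i < a) :
    ¬ InSoc ι p (Rr ρ ψ) (8 * p ^ i) := by
  rintro ⟨X, hX, hb⟩
  have hp : p.Prime := Fact.out
  have h2 : (2 : k) ≠ 0 := two_ne f.odd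
  have hq : 11 ≤ Fintype.card K := by
    rw [f.card]
    have h1 : p ≤ p ^ a := Nat.le_self_pow (by omega) p
    by_contra hc
    have h9 : p = 9 ∨ p = 10 := by omega
    rcases h9 with rfl | rfl <;> revert hp <;> decide
  have ht' : ∀ c ∈ cf (Sy.{u, u, w} ι p) (Rr ρ' ψ), tyl p c = [8] ∨ tyl p c = [2, 2] := fun c hc => ht c (by rwa [← f.cf_eq ι])
  have hI := f.img8 ι hp8 ht hi hX hb
  have hI' := f.swap.img8 ι hp8 ht' hi (Im_inv f hX) hI
  obtain ⟨v, hv⟩ := hb.basS ι p hp8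
  obtain ⟨v', hv'⟩ := hI.basS ι p hp8
  obtain ⟨v'', hv''⟩ := hI'.basS ι p hp8
  obtain ⟨⟨c, hc, h33⟩, -⟩ := prod8 ι hv hv' (crI_equiv f hX) (crI_span X) hp8 (by omega)
  obtain ⟨-, c', hc', h22⟩ := prod8 ι hv' hv'' (crI_equiv f.swap (Im_inv f hX)) (crI_span (Im X)) hp8 (by omega)
  -- `sh (sh v3)`
  have e1 : cr (v 3 : I27 → k) (v 3) = c • (v' 2 : I27 → k) := congrArg Subtype.val h33
  have e2 : cr (v' 2 : I27 → k) (v' 2) = c' • (v'' 0 : I27 → k) := congrArg Subtype.val h22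
  have e3 : sh (v 3 : I27 → k) = ((2 : k)⁻¹ * c) • (v' 2 : I27 → k) := by
    rw [cr_self] at e1
    rw [← smul_smul, ← e1, smul_smul, inv_mul_cancel₀ h2, one_smul]
  have e4 : sh (v' 2 : I27 → k) = ((2 : k)⁻¹ * c') • (v'' 0 : I27 → k) := by
    rw [cr_self] at e2
    rw [← smul_smul, ← e2, smul_smul, inv_mul_cancel₀ h2, one_smul]
  have e5 : cubicT (v 3 : I27 → k) • (v 3 : I27 → k) = (((2 : k)⁻¹ * c) ^ 2 * ((2 : k)⁻¹ * c')) • (v'' 0 : I27 → k) := by
    rw [← sh_sh, e3, sh_smul, e4, smul_smul]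
  have hd : ((2 : k)⁻¹ * c) ^ 2 * ((2 : k)⁻¹ * c') ≠ 0 :=
    mul_ne_zero (pow_ne_zero _ (mul_ne_zero (inv_ne_zero h2) hc)) (mul_ne_zero (inv_ne_zero h2) hc')
  have e6 : ∃ d : k, (v'' 0 : I27 → k) = d • (v 3 : I27 → k) := by
    refine ⟨(((2 : k)⁻¹ * c) ^ 2 * ((2 : k)⁻¹ * c'))⁻¹ * cubicT (v 3 : I27 → k), ?_⟩
    rw [← smul_smul, e5, smul_smul, inv_mul_cancel₀ hd, one_smul]
  obtain ⟨d, e6⟩ := e6
  -- `w v''_0` is fixed by `U`
  have e7 : ∀ t, Rr ρ ψ (u t) (Rr ρ ψ (Cfsg.Agent.H943.SL2Rel.w) (v'' 0 : I27 → k)) = Rr ρ ψ (Cfsg.Agent.H943.SL2Rel.w) (v'' 0 : I27 → k) := by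
    intro t
    have h3 : Rr ρ ψ (Cfsg.Agent.H943.SL2Rel.w) (v'' 0 : I27 → k) = (v'' 8 : I27 → k) := by
      have h4 := congrArg Subtype.val (hv''.w 0 (by norm_num))
      rw [pow_zero, one_smul] at h4
      exact h4
    rw [h3]
    have h4 := congrArg Subtype.val (hv''.u 8 (by norm_num) t)
    rw [Finset.sum_range_one, Nat.choose_zero_right, Nat.cast_one, pow_zero, mul_one, one_smul] at h4
    exact h4
  have hd0 : d ≠ 0 := by
    rintro rfl
    rw [zero_smul] at e6
    have h3 : v'' 0 = 0 := Subtype.ext e6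
    have h4 := hv''.li.ne_zero 0
    exact h4 h3
  have e8 : Rr ρ ψ (Cfsg.Agent.H943.SL2Rel.w) (v 3 : I27 → k) = -(v 5 : I27 → k) := by
    have h4 := congrArg Subtype.val (hv.w 3 (by norm_num))
    have h5 : ((-1 : k) ^ 3) = -1 := by norm_num
    rw [h5, neg_one_smul] at h4
    exact h4
  have e9 : Rr ρ ψ (u 1) (v 5 : I27 → k) = (v 5 : I27 → k) := by
    have h3 := e7 1
    rw [e6, map_smul, map_smul, e8, map_neg] at h3
    have h4 := smul_right_injective _ hd0 h3
    exact neg_injective h4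
  have e10 : subRep (Rr ρ ψ) X hX (u 1) (v 5) = v 5 := Subtype.ext e9
  obtain ⟨F', -, hF2⟩ := basS_coord ι p hv
  have e11 := congrArg (F' 6) e10
  rw [hv.u 5 (by norm_num)] at e11
  simp only [Finset.sum_range_succ, Finset.sum_range_zero] at e11
  simp only [map_add, map_smul, map_zero, hF2 6 (by norm_num) 5 (by norm_num), hF2 6 (by norm_num) 6 (by norm_num),
    hF2 6 (by norm_num) 7 (by norm_num), hF2 6 (by norm_num) 8 (by norm_num), Nat.reduceAdd, Nat.reduceSub] at e11
  norm_num [Nat.choose] at e11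
  have h3 : ((3 : ℕ) : k) = 0 := by exact_mod_cast e11
  rw [CharP.cast_eq_zero_iff k p] at h3
  have := Nat.le_of_dvd (by norm_num) h3
  omega

end Cfsg.Agent.R2.H28.SL2
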