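import Cfsg.Agent.R2.H22.L4
import Cfsg.Agent.R2.H28.SL2.L8
import Cfsg.Agent.R2.H28.SL2.TK2

/-!
# The local statements (helper28)

`Fra.lc` : `Lc` from L11 (`q ≥ 9`); `cf_eight` : the label of the square of the highest weight vector of `V_{4 p^i}`.
-/

set_option autoImplicit false
set_option linter.unusedSectionVars false

namespace Cfsg.Agent.R2.H28.SL2

open Matrix Cfsg.Agent.H943.SL2Rel Cfsg.Agent.H943.SL2Mod Cfsg.Agent.H943.RepAdd
open Cfsg.Lie
open Cfsg.Agent.ChevalleyStructure Cfsg.Agent.ChevalleyStructure.E6Form.Cubic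
  Cfsg.Agent.ChevalleyStructure.E6Form.Table
open Cfsg.Agent.ChevalleyStructure.E6Min.Basic (Zgrp)
open Cfsg.Agent.H952.F4 (sh cr tf)
open Cfsg.Agent.H952.F4.Jord
open Cfsg.Agent.R2.GEO (Pair crB crB_apply tfB tfB_apply)
open Cfsg.Agent.R2.SL2 (typ tyl coe_tyl typ_step typ_zero listE6 tyl_eq_nil mem_typ tyl_one tyl_two)

universe u v w

variable {k : Type u} [Field k] [DecidableEq k] [IsAlgClosed k] {K : Type w} [Field K] [Fintype K] [DecidableEq K]
  (ι : K →+* k) {p a : ℕ} [Fact p.Prime] [CharP k p] [CharP K p]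
  {ψ : SpecialLinearGroup (Fin 2) K →* ↥(Zgrp k)} {ρ ρ' : Representation k ↥(Zgrp k) (I27 → k)}

open Cfsg.Agent.R2.H22.Loc (Nts Ch exists_ch four_sh_ne not_inSoc_two four_w four_u)

theorem pow_lt_pred {p a : ℕ} (hp : 1 < p) {i : ℕ} {n : ℕ} (hia : i + 1 < a) (hn : n ≤ p + 1) (hp2 : 3 ≤ p) :
    n * p ^ i < p ^ a - 1 := by
  have h1 : n * p ^ i ≤ p ^ (i + 1) + p ^ i := by
    calc n * p ^ i ≤ (p + 1) * p ^ i := Nat.mul_le_mul_right _ hn
      _ = p ^ (i + 1) + p ^ i := by ring
  have h2 : p ^ (i + 1) * p ≤ p ^ a := by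
    rw [← pow_succ]
    exact Nat.pow_le_pow_right (by omega) (by omega)
  have h3 : p ^ i ≤ p ^ (i + 1) := Nat.pow_le_pow_right (by omega) (by omega)
  have h4 : 0 < p ^ i := Nat.pow_pos (by omega)
  have h5 : p ^ (i + 1) * 3 ≤ p ^ (i + 1) * p := Nat.mul_le_mul_left _ hp2
  have h6 : p ^ 1 ≤ p ^ (i + 1) := Nat.pow_le_pow_right (by omega) (by omega)
  rw [pow_one] at h6
  omega

/-- the label of the square of the highest weight vector of `V_{4 p^i}` -/
theorem cf_eight (f : Fra p a ψ ρ ρ') (hp5 : 5 ≤ p) (hq9 : 9 ≤ p ^ a) (nts : Nts ψ ρ) (nts' : Nts ψ ρ') {i : ℕ}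
    (hi : i < a) (h4 : InSoc ι p (Rr ρ ψ) (4 * p ^ i)) :
    (11 ≤ p ∧ 8 * p ^ i ∈ cf (Sy.{u, u, w} ι p) (Rr ρ ψ)) ∨
    (p = 7 ∧ p ^ i + p ^ ((i + 1) % a) ∈ cf (Sy.{u, u, w} ι p) (Rr ρ ψ)) ∨
    (p = 5 ∧ 3 * p ^ i + p ^ ((i + 1) % a) ∈ cf (Sy.{u, u, w} ι p) (Rr ρ ψ)) := by
  have hp : p.Prime := Fact.out
  obtain ⟨v, c, hv⟩ := exists_ch (by omega : 4 < p) h4
  have h9 : 9 ≤ Fintype.card K := by rw [f.card]; exact hq9
  have hne := four_sh_ne f hp5 h9 nts nts' c (hv 0 (by norm_num))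
  obtain ⟨-, -, -, -, w4⟩ := four_w c
  have hU : ∀ t, Rr ρ' ψ (u t) (cr (v 4) (v 4)) = cr (v 4) (v 4) := by
    intro t
    rw [Rr_apply, ← pair_cr f.pair, (four_u c t).2.2.2.2]
  have hH : ∀ b, Rr ρ' ψ (h b) (cr (v 4) (v 4)) = ι b ^ (8 * p ^ i) • cr (v 4) (v 4) := by
    intro b
    have h1 := c.h 4 le_rfl b
    rw [Rr_apply] at h1
    rw [Rr_apply, ← pair_cr f.pair, h1, Cfsg.Agent.H952.F4.Jord.cr_smul_left, Cfsg.Agent.H952.F4.Jord.cr_smul_right,
      smul_smul, Nat.sub_self, pow_zero, mul_one, ← pow_add, ← pow_mul, mul_comm (p ^ i)]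
  obtain ⟨b, hb, hbm⟩ := mem_cf_of_hw ι p hne hU hH
  rw [f.cf_eq ι] at hb
  have hblt := cf_lt ι p f.card _ b hb
  rw [f.card] at hbm
  have fin : ∀ e, e < p ^ a - 1 → 0 < e → 8 * p ^ i % (p ^ a - 1) = e → b = e := by
    intro e he he0 h1
    rw [h1] at hbm
    have h2 : b ≠ p ^ a - 1 := by
      intro h2
      rw [h2, Nat.mod_self] at hbm
      omega
    rwa [Nat.mod_eq_of_lt (by omega)] at hbm
  have h8 : p = 5 ∨ p = 7 ∨ 11 ≤ p := by
    by_contra hcon
    have h13 : p < 11 := by omega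
    interval_cases p <;> first | omega | (norm_num at hp)
  have hpi : 0 < p ^ i := Nat.pow_pos hp.pos
  have small : p = 5 ∨ p = 7 → b = (8 - p) * p ^ i + p ^ ((i + 1) % a) := by
    intro hp57
    have ha2 : 2 ≤ a := by
      by_contra hc
      have ha1 : a = 1 := by omega
      rw [ha1, pow_one] at hq9
      omega
    rcases Nat.lt_or_ge (i + 1) a with hia | hia
    · rw [Nat.mod_eq_of_lt hia]
      have h1 : (8 - p) * p ^ i + p ^ (i + 1) = 8 * p ^ i := by
        rw [pow_succ, mul_comm (p ^ i) p, ← add_mul]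
        congr 1
        omega
      rw [h1]
      rcases hp57 with h | h
      · refine fin _ ?_ (by omega) (Nat.mod_eq_of_lt ?_)
        all_goals
          have h2 : 2 * p ^ (i + 1) < p ^ a - 1 := by
            have h3 : p ^ (i + 1) * p ≤ p ^ a := by
              rw [← pow_succ]
              exact Nat.pow_le_pow_right (by omega) (by omega)
            have h4 : 0 < p ^ (i + 1) := Nat.pow_pos hp.pos
            have h5 : p ^ (i + 1) * 5 = p ^ (i + 1) * p := by rw [h]
            omega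
          have h3 : p ^ (i + 1) = 5 * p ^ i := by rw [pow_succ, h]; ring
          omega
      · have h2 := pow_lt_pred (n := 8) hp.one_lt hia (by omega) (by omega)
        exact fin _ h2 (by omega) (Nat.mod_eq_of_lt h2)
    · have hia' : i + 1 = a := by omega
      rw [hia', Nat.mod_self, pow_zero]
      have h1 : 8 * p ^ i = ((8 - p) * p ^ i + 1) + (p ^ a - 1) := by
        have h2 : 8 * p ^ i = (8 - p) * p ^ i + p ^ a := by
          rw [← hia', pow_succ, mul_comm (p ^ i) p, ← add_mul]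
          congr 1
          omega
        have h3 : 0 < p ^ a := Nat.pow_pos hp.pos
        omega
      have hi1 : 1 ≤ i := by omega
      have hlt : (8 - p) * p ^ i + 1 < p ^ a - 1 := by
        have h2 : p ^ a = p * p ^ i := by rw [← hia', pow_succ, mul_comm]
        have h3 : p ^ 1 ≤ p ^ i := Nat.pow_le_pow_right (by omega) hi1
        rw [pow_one] at h3
        have h4 : (8 - p) * p ^ i ≤ (p - 2) * p ^ i := Nat.mul_le_mul_right _ (by omega)
        have h5 : (p - 2) * p ^ i + 2 * p ^ i = p * p ^ i := by rw [← add_mul]; congr 1; omega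
        omega
      refine fin _ hlt (by omega) ?_
      rw [h1, Nat.add_mod_right, Nat.mod_eq_of_lt hlt]
  rcases h8 with h5 | h7 | h11
  · right; right
    have h1 := small (Or.inl h5)
    have e : 8 - p = 3 := by omega
    rw [e] at h1
    rw [← h1]
    exact ⟨h5, hb⟩
  · right; left
    have h1 := small (Or.inr h7)
    have e : 8 - p = 1 := by omega
    rw [e, one_mul] at h1
    rw [← h1]
    exact ⟨h7, hb⟩
  · left
    have h1 : 8 * p ^ i < p ^ a - 1 := by
      have h2 : p ^ (i + 1) ≤ p ^ a := Nat.pow_le_pow_right (by omega) (by omega)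
      rw [pow_succ] at h2
      have h3 : p ^ i * 11 ≤ p ^ i * p := Nat.mul_le_mul_left _ h11
      omega
    have h2 := fin _ h1 (by omega) (Nat.mod_eq_of_lt h1)
    rw [← h2]
    exact ⟨h11, hb⟩

/-- **the local statements** -/
theorem Fra.lc (f : Fra p a ψ ρ ρ') (hp5 : 5 ≤ p) (hq9 : 9 ≤ p ^ a) (nts : Nts ψ ρ) (nts' : Nts ψ ρ')
    (n11 : ∀ i < a, ∀ j < a, i ≠ j → ¬ InSoc ι p (Rr ρ ψ) (p ^ i + p ^ j)) : Lc.{u, u, w} ι p a (Rr ρ ψ) (Rr ρ' ψ) where
  n2 i _ := not_inSoc_two f hp5 (by rw [f.card]; omega) nts nts' i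
  n11 := n11
  l4 i hi h4 := cf_eight ι f hp5 hq9 nts nts' hi h4
  l6 := by
    intro i hi h
    have hp : p.Prime := Fact.out
    have hpi : 0 < p ^ i := Nat.pow_pos hp.pos
    by_cases h6 : 6 < p
    · obtain ⟨X, hX, hb, -, c, hc1, hc2, hc3⟩ := f.lzero' ι h fun l hl => by
        obtain ⟨X, hX, hb⟩ := h
        have h7 := hb.dim_single ι f.card h6
        rw [hl] at hb
        have h8 := hb.dim_single ι f.card (by omega)
        omega
      rw [cf_sq_single ι p f.card h6 hi hb] at hc1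
      exact ⟨c, hc1, hc3, hc2⟩
    · exfalso
      have h5 : p = 5 := by
        by_contra hc
        have h7 : p = 6 := by omega
        rw [h7] at hp
        revert hp
        decide
      have hlt := cf_lt ι p f.card (Rr ρ ψ) _ h.mem_cf
      have hia : i + 1 < a := by
        by_contra hc
        have h7 : a = i + 1 := by omega
        rw [h7, pow_succ] at hlt
        rw [h5] at hlt
        omega
      refine n11 i hi (i + 1) hia (by omega) ?_
      have e : p ^ i + p ^ (i + 1) = 6 * p ^ i := by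
        rw [pow_succ, h5]
        ring
      rw [e]
      exact h
  l8 := by
    intro ht i hi h
    have hp : p.Prime := Fact.out
    by_cases h8 : 8 < p
    · exact f.l8 ι h8 ht hi h
    · have h9 := ht _ h.mem_cf
      have hpc : p = 5 ∨ p = 7 := by
        by_contra hcon
        interval_cases p <;> first | omega | (norm_num at hp)
      rcases hpc with h5 | h7
      · have e : 8 * p ^ i = 3 * p ^ i + 1 * p ^ (i + 1) := by
          rw [pow_succ, h5]
          ring
        rw [e, tyl_pair' (by norm_num) (by omega) (by norm_num) (by omega) (by omega)] at h9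
        simp at h9
      · have e : 8 * p ^ i = 1 * p ^ i + 1 * p ^ (i + 1) := by
          rw [pow_succ, h7]
          ring
        rw [e, tyl_pair (by norm_num) (by omega) (by norm_num) (by omega) (by omega)] at h9
        simp at h9
  l22 := by
    intro i hi j hj hij X hX hb h4i h4j
    exact f.l22 ι (by omega) hij hi hj X hX hb h4i h4j

end Cfsg.Agent.R2.H28.SL2
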