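import Cfsg.Agent.R2.H28.SL2.ExtS
import Cfsg.Agent.R2.H28.SL2.Bas
import Cfsg.Agent.R2.H28.SL2.Both

/-!
# Splitting (helper28)

* `split_one` : a factor of multiplicity one without extensions splits off;
* `split3` : three different factors without extensions;
* `ext0_E` : `p ≥ 13`, labels `12 p^i, 8 p^j, 4 p^l`, `a ≥ 2` or `p ≥ 29`; `splitE`, `splitE'` (bases);
* `ext0_13`, `ext0_17`, `ext0_19`, `ext0_23` : `a = 1`.
-/

set_option autoImplicit false
set_option linter.unusedSectionVars false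

namespace Cfsg.Agent.R2.H28.SL2

open Matrix Cfsg.Agent.H943.SL2Rel Cfsg.Agent.H943.SL2Mod Cfsg.Agent.H943.RepAdd
open Cfsg.Agent.R2.SL2 (typ tyl coe_tyl typ_step typ_zero listE6 tyl_eq_nil mem_typ tyl_one tyl_two)

universe u v w

variable {k : Type u} [Field k] [DecidableEq k] {F : Type w} [Field F] [Fintype F] [DecidableEq F] (ι : F →+* k)
variable (p : ℕ) [Fact p.Prime] [CharP k p] [CharP F p] [IsAlgClosed k] {a : ℕ} (hF : Fintype.card F = p ^ a)

theorem map_cons_inv {α β : Type*} (f : α → β) {t : β} {T : Multiset β} {s : Multiset α} (h : t ::ₘ T = s.map f) :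
    ∃ b s', s = b ::ₘ s' ∧ f b = t ∧ T = s'.map f := by
  have h1 : t ∈ s.map f := by
    rw [← h]
    exact Multiset.mem_cons_self _ _
  obtain ⟨b, hb, hbt⟩ := Multiset.mem_map.1 h1
  obtain ⟨s', hs'⟩ := Multiset.exists_cons_of_mem hb
  refine ⟨b, s', hs', hbt, ?_⟩
  rw [hs', Multiset.map_cons, hbt, Multiset.cons_inj_right] at h
  exact h

/-- modules with one factor -/
theorem isV_of_cf {V : Type v} [AddCommGroup V] [Module k V] [FiniteDimensional k V]
    {ρ : Representation k (SpecialLinearGroup (Fin 2) F) V} {b : ℕ} (h : cf (Sy.{u, v, w} ι p) ρ = {b}) : IsV ι p ρ b := by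
  have hnt : Nontrivial V := by
    by_contra hc
    have := not_nontrivial_iff_subsingleton.1 hc
    rw [cf_zero] at h
    exact absurd h (Multiset.singleton_ne_zero b).symm
  obtain ⟨c, X, hX, hc⟩ := exists_inSoc ι p ρ
  have h1 : c ∈ cf (Sy.{u, v, w} ι p) ρ := InSoc.mem_cf ι p ⟨X, hX, hc⟩
  rw [h, Multiset.mem_singleton] at h1
  subst h1
  have h2 := finrank_cf ι p _ V ρ le_rfl
  have hc' : IsV ι p (subRep ρ X hX) c := hc
  have h3 := hc'.finrank ι
  rw [h, Multiset.map_singleton, Multiset.sum_singleton] at h2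
  have h4 : X = ⊤ := Submodule.eq_top_of_finrank_eq (by omega)
  subst h4
  exact IsV.iso ι p Submodule.topEquiv (fun g x => rfl) hc'

/-- **splitting off** -/
theorem split_one {V : Type v} [AddCommGroup V] [Module k V] [FiniteDimensional k V]
    (ρ : Representation k (SpecialLinearGroup (Fin 2) F) V) {b : ℕ} (hb : (cf (Sy.{u, v, w} ι p) ρ).count b = 1)
    (hE : ∀ c ∈ cf (Sy.{u, v, w} ι p) ρ, c ≠ b → Ext0 (Sy.{u, v, w} ι p) c b ∧ Ext0 (Sy.{u, v, w} ι p) b c) :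
    ∃ (X : Submodule k V) (Y : Submodule k V) (hX : ∀ g, ∀ x ∈ X, ρ g x ∈ X) (hY : ∀ g, ∀ x ∈ Y, ρ g x ∈ Y),
      IsCompl X Y ∧ IsV ι p (subRep ρ X hX) b ∧ cf (Sy.{u, v, w} ι p) (subRep ρ Y hY) = (cf (Sy.{u, v, w} ι p) ρ).erase b := by
  obtain ⟨X, Y, hX, hY, hc, h1, h2⟩ := block (S := Sy.{u, v, w} ι p) (fun c => c = b) (ρ := ρ)
    (fun b' hb' c hc h1 h2 => by
      rw [h1]
      exact hE c hc h2)
  have h3 := cf_sup (S := Sy.{u, v, w} ι p) hX hY hc
  have h4 : b ∉ cf (Sy.{u, v, w} ι p) (subRep ρ Y hY) := fun h => h2 b h rfl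
  have h5 : cf (Sy.{u, v, w} ι p) (subRep ρ X hX) = {b} := by
    have h6 := Multiset.eq_replicate.2 ⟨rfl, h1⟩
    rw [h3, Multiset.count_add, Multiset.count_eq_zero_of_notMem h4, add_zero, h6, Multiset.count_replicate_self] at hb
    rw [h6, hb, Multiset.replicate_one]
  refine ⟨X, Y, hX, hY, hc, isV_of_cf ι p h5, ?_⟩
  rw [h3, h5, Multiset.singleton_add, Multiset.erase_cons_head]

/-- **three factors** -/
theorem split3 {V : Type v} [AddCommGroup V] [Module k V] [FiniteDimensional k V]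
    (ρ : Representation k (SpecialLinearGroup (Fin 2) F) V) {b : Fin 3 → ℕ} (hb : Function.Injective b)
    (hcf : cf (Sy.{u, v, w} ι p) ρ = {b 0, b 1, b 2})
    (hE : ∀ i j, i ≠ j → Ext0 (Sy.{u, v, w} ι p) (b i) (b j)) :
    ∃ (X : Fin 3 → Submodule k V) (hX : ∀ i, ∀ g, ∀ x ∈ X i, ρ g x ∈ X i), (∀ i, IsV ι p (subRep ρ (X i) (hX i)) (b i)) ∧
      IsCompl (X 0) (X 1 ⊔ X 2) ∧ Disjoint (X 1) (X 2) := by
  have h01 : b 0 ≠ b 1 := fun h => by simpa using hb h
  have h02 : b 0 ≠ b 2 := fun h => by simpa using hb h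
  have h12 : b 1 ≠ b 2 := fun h => by simpa using hb h
  have hmem : ∀ c ∈ cf (Sy.{u, v, w} ι p) ρ, ∃ i, c = b i := by
    intro c hc
    rw [hcf] at hc
    simp only [Multiset.insert_eq_cons, Multiset.mem_cons, Multiset.mem_singleton] at hc
    rcases hc with h | h | h
    · exact ⟨0, h⟩
    · exact ⟨1, h⟩
    · exact ⟨2, h⟩
  have hcf' : cf (Sy.{u, v, w} ι p) ρ = b 0 ::ₘ b 1 ::ₘ {b 2} := by rw [hcf]; rfl
  obtain ⟨X0, Y, hX0, hY, hc, hV0, hYcf⟩ := split_one ι p ρ (b := b 0) (by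
      rw [hcf', Multiset.count_cons_self, Multiset.count_eq_zero_of_notMem]
      simp only [Multiset.mem_cons, Multiset.mem_singleton]
      tauto)
    (fun c hc hne => by
      obtain ⟨i, rfl⟩ := hmem c hc
      have hi : i ≠ 0 := fun h => hne (by rw [h])
      exact ⟨hE i 0 hi, hE 0 i (Ne.symm hi)⟩)
  rw [hcf', Multiset.erase_cons_head] at hYcf
  obtain ⟨X1, X2, hX1, hX2, hc', hV1, hX2cf⟩ := split_one ι p (subRep ρ Y hY) (b := b 1) (by
      rw [hYcf, Multiset.count_cons_self, Multiset.count_eq_zero_of_notMem]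
      simp only [Multiset.mem_singleton]
      tauto)
    (fun c hc hne => by
      rw [hYcf, Multiset.mem_cons, Multiset.mem_singleton] at hc
      rcases hc with h | h
      · exact absurd h hne
      · rw [h]
        exact ⟨hE 2 1 (by decide), hE 1 2 (by decide)⟩)
  rw [hYcf, Multiset.erase_cons_head] at hX2cf
  have hV2 := isV_of_cf ι p hX2cf
  have key : ∀ (Z : Submodule k Y) (hZ : ∀ g, ∀ x ∈ Z, subRep ρ Y hY g x ∈ Z) (c : ℕ), IsV ι p (subRep (subRep ρ Y hY) Z hZ) c →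
      ∃ hZ' : ∀ g, ∀ x ∈ Z.map Y.subtype, ρ g x ∈ Z.map Y.subtype, IsV ι p (subRep ρ (Z.map Y.subtype) hZ') c := by
    intro Z hZ c hc
    obtain ⟨h1, e, he⟩ := eqv_map (subRep ρ Y hY) ρ Y.subtype (fun g x => rfl) Y.injective_subtype Z hZ
    exact ⟨h1, IsV.iso ι p e he hc⟩
  obtain ⟨hZ1, hW1⟩ := key X1 hX1 _ hV1
  obtain ⟨hZ2, hW2⟩ := key X2 hX2 _ hV2
  have hsup : X1.map Y.subtype ⊔ X2.map Y.subtype = Y := by
    rw [← Submodule.map_sup, hc'.sup_eq_top, Submodule.map_top, Submodule.range_subtype]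
  have hdis : Disjoint (X1.map Y.subtype) (X2.map Y.subtype) :=
    (Submodule.disjoint_map Y.injective_subtype hc'.disjoint)
  refine ⟨![X0, X1.map Y.subtype, X2.map Y.subtype], ?_, ?_, ?_, ?_⟩
  · intro i
    fin_cases i
    · exact hX0
    · exact hZ1
    · exact hZ2
  · intro i
    fin_cases i
    · exact hV0
    · exact hW1
    · exact hW2
  · show IsCompl X0 (X1.map Y.subtype ⊔ X2.map Y.subtype)
    rw [hsup]
    exact hc
  · exact hdis

/-! ## The labels `12 p^i, 8 p^j, 4 p^l` -/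

section E

include hF in
theorem ext0_E (hp13 : 13 ≤ p) (h : 2 ≤ a ∨ 29 ≤ p) {n m i j : ℕ} (hi : i < a) (hj : j < a) (hn : n ≠ 1) (hm : m ≠ 1)
    (hn12 : n ≤ 12) (hm12 : m ≤ 12) (hnm : n + m ≤ 20) : Ext0 (Sy.{u, v, w} ι p) (n * p ^ i) (m * p ^ j) := by
  by_cases hij : i = j
  · subst hij
    exact ext0_same ι p hF (by omega) (by omega) (by omega) hi (by omega)
  · exact ext0_diff ι p hF (by omega) (by omega) (by omega) hij hi hj (by tauto) (by tauto)

/-- the digits -/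
def nnE : Fin 3 → ℕ := ![12, 8, 4]

include hF in
/-- **the splitting** -/
theorem splitE (hp13 : 13 ≤ p) (h : 2 ≤ a ∨ 29 ≤ p) {V : Type v} [AddCommGroup V] [Module k V] [FiniteDimensional k V]
    (ρ : Representation k (SpecialLinearGroup (Fin 2) F) V) {tw : Fin 3 → ℕ} (htw : ∀ i, tw i < a)
    (hcf : cf (Sy.{u, v, w} ι p) ρ = {12 * p ^ tw 0, 8 * p ^ tw 1, 4 * p ^ tw 2}) :
    ∃ (X : Fin 3 → Submodule k V) (hX : ∀ i, ∀ g, ∀ x ∈ X i, ρ g x ∈ X i),
      (∀ i, IsV ι p (subRep ρ (X i) (hX i)) (nnE i * p ^ tw i)) ∧ IsCompl (X 0) (X 1 ⊔ X 2) ∧ Disjoint (X 1) (X 2) := by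
  have hlt : ∀ i, nnE i < p := by
    intro i
    fin_cases i <;> simp [nnE] <;> omega
  have h0 : ∀ i, 0 < nnE i := by
    intro i
    fin_cases i <;> simp [nnE]
  refine split3 ι p ρ (b := fun i => nnE i * p ^ tw i) ?_ hcf fun i j hij => ?_
  · intro i j hij
    have h1 := congrArg (tyl p) hij
    simp only at h1
    rw [tyl_single (h0 i) (hlt i), tyl_single (h0 j) (hlt j)] at h1
    have h2 : nnE i = nnE j := by simpa using h1
    clear h1 hij
    revert h2
    revert i j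
    decide
  · refine ext0_E ι p hF hp13 h (htw i) (htw j) ?_ ?_ ?_ ?_ ?_
    all_goals
      revert hij
      revert i j
      decide

include hF in
/-- `p = 13`, `a = 1` -/
theorem ext0_13 (ha : a = 1) (hp : p = 13) {n : ℕ} (hn : n = 4 ∨ n = 8) :
    Ext0 (Sy.{u, v, w} ι p) 12 n ∧ Ext0 (Sy.{u, v, w} ι p) n 12 := by
  have h1 : Ext0 (Sy.{u, v, w} ι p) 12 n := by
    refine ext0_of_lft ι p hF (a := a) ?_
    subst ha hp
    rcases hn with rfl | rfl
    · unfold Lft en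
      decide
    · unfold Lft en
      decide
  exact ⟨h1, ext0_symm ι p h1⟩

include hF in
/-- `p = 17` or `p = 19`, `a = 1` : 8 and 12 -/
theorem ext0_17 (ha : a = 1) (hp : p = 17 ∨ p = 19) :
    Ext0 (Sy.{u, v, w} ι p) 12 8 ∧ Ext0 (Sy.{u, v, w} ι p) 8 12 := by
  have h1 : Ext0 (Sy.{u, v, w} ι p) 12 8 := by
    refine ext0_one ι p hF ha ?_ ?_ ?_
    · rcases hp with rfl | rfl <;> decide
    · rcases hp with rfl | rfl <;> decide
    · intro j h1 h2
      rcases hp with rfl | rfl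
      · have : j ≤ 16 := h2
        interval_cases j <;> decide
      · have : j ≤ 18 := h2
        interval_cases j <;> decide
  exact ⟨h1, ext0_symm ι p h1⟩

include hF in
/-- `p = 17, 19` or `23`, `a = 1` : 8 and 4 -/
theorem ext0_84 (ha : a = 1) (hp : p = 17 ∨ p = 19 ∨ p = 23) :
    Ext0 (Sy.{u, v, w} ι p) 8 4 ∧ Ext0 (Sy.{u, v, w} ι p) 4 8 := by
  have h1 : Ext0 (Sy.{u, v, w} ι p) 8 4 := by
    refine ext0_of_lft ι p hF (a := a) ?_
    subst ha
    rcases hp with rfl | rfl | rfl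
    · unfold Lft en
      decide
    · unfold Lft en
      decide
    · unfold Lft en
      decide
  exact ⟨h1, ext0_symm ι p h1⟩

include hF in
/-- `p = 23`, `a = 1` : 12 and 4 -/
theorem ext0_23 (ha : a = 1) (hp : p = 23) :
    Ext0 (Sy.{u, v, w} ι p) 12 4 ∧ Ext0 (Sy.{u, v, w} ι p) 4 12 := by
  have h1 : Ext0 (Sy.{u, v, w} ι p) 12 4 := by
    refine ext0_of_lft ι p hF (a := a) ?_
    subst ha hp
    unfold Lft en
    decide
  exact ⟨h1, ext0_symm ι p h1⟩

end E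

/-! ## Bases -/

/-- the relations of the standard basis of `V_{n p^i}` -/
structure Chn {V : Type*} [AddCommGroup V] [Module k V] (σ : Representation k (SpecialLinearGroup (Fin 2) F) V) (n i : ℕ)
    (v : ℕ → V) : Prop where
  zero : ∀ s, n < s → v s = 0
  ne : ∀ s ≤ n, v s ≠ 0
  u : ∀ s ≤ n, ∀ t, σ (u t) (v s) =
    ∑ j ∈ Finset.range (n - s + 1), (((n - s).choose j : k) * (ι t ^ p ^ i) ^ j) • v (s + j)
  h : ∀ s ≤ n, ∀ a : Fˣ, σ (h a) (v s) = ((ι a ^ p ^ i) ^ s * ((ι a ^ p ^ i)⁻¹) ^ (n - s)) • v s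
  w : ∀ s ≤ n, σ w (v s) = (-1 : k) ^ s • v (n - s)

theorem exists_chn {V : Type*} [AddCommGroup V] [Module k V] {σ : Representation k (SpecialLinearGroup (Fin 2) F) V}
    {X : Submodule k V} (hX : ∀ g, ∀ x ∈ X, σ g x ∈ X) {n i : ℕ} (hn : n < p) (hb : IsV ι p (subRep σ X hX) (n * p ^ i)) :
    ∃ v : ℕ → V, Chn ι p σ n i v ∧ Submodule.span k (Set.range fun s : Fin (n + 1) => v s) = X := by
  obtain ⟨v, hv⟩ := hb.basS ι p hn
  refine ⟨fun s => (v s : V), ⟨fun s hs => by rw [hv.zero s hs]; rfl, fun s hs h0 => ?_, fun s hs t => ?_, fun s hs a => ?_,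
    fun s hs => ?_⟩, ?_⟩
  · exact hv.li.ne_zero (⟨s, Nat.lt_succ_of_le hs⟩ : Fin (n + 1)) (Subtype.ext h0)
  · have h1 := congrArg Subtype.val (hv.u s hs t)
    rw [Submodule.coe_sum] at h1
    exact h1
  · exact congrArg Subtype.val (hv.h s hs a)
  · exact congrArg Subtype.val (hv.w s hs)
  · have h1 : (Set.range fun s : Fin (n + 1) => ((v s : X) : V)) = X.subtype '' (Set.range fun s : Fin (n + 1) => v s) := by
      rw [← Set.range_comp]
      rfl
    rw [h1, ← Submodule.map_span, eq_top_iff.2 hv.sp, Submodule.map_top, Submodule.range_subtype]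

include hF in
/-- **the splitting, with bases** -/
theorem splitE' (hp13 : 13 ≤ p) (h : 2 ≤ a ∨ 29 ≤ p) {V : Type v} [AddCommGroup V] [Module k V] [FiniteDimensional k V]
    (ρ : Representation k (SpecialLinearGroup (Fin 2) F) V) {tw : Fin 3 → ℕ} (htw : ∀ i, tw i < a)
    (hcf : cf (Sy.{u, v, w} ι p) ρ = {12 * p ^ tw 0, 8 * p ^ tw 1, 4 * p ^ tw 2}) :
    ∃ v : Fin 3 → ℕ → V, (∀ i, Chn ι p ρ (nnE i) (tw i) (v i)) ∧
      ⊤ ≤ Submodule.span k (Set.range fun j : (i : Fin 3) × Fin (nnE i + 1) => v j.1 j.2) := by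
  obtain ⟨X, hX, hV, hc, -⟩ := splitE ι p hF hp13 h ρ htw hcf
  have hlt : ∀ i, nnE i < p := by
    intro i
    fin_cases i <;> simp [nnE] <;> omega
  choose v hv hs using fun i => exists_chn ι p (hX i) (hlt i) (hV i)
  refine ⟨v, hv, ?_⟩
  have h1 : ∀ i, X i ≤ Submodule.span k (Set.range fun j : (i : Fin 3) × Fin (nnE i + 1) => v j.1 j.2) := by
    intro i
    rw [← hs i]
    refine Submodule.span_mono ?_
    rintro _ ⟨s, rfl⟩
    exact ⟨⟨i, s⟩, rfl⟩
  rw [← hc.sup_eq_top]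
  exact sup_le (h1 0) (sup_le (h1 1) (h1 2))

end Cfsg.Agent.R2.H28.SL2
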