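import Cfsg.Agent.R2.H22.P11
import Cfsg.Agent.R2.H28.SL2.Lcb
import Cfsg.Agent.R2.H28.SL2.SplitE

/-!
# The patterns for `p = 11` (helper28)

* `Fra.soc_eight` : `a ≥ 2`, `p ≥ 11`: if `V_{4 p^i}` is in the socle of `V` then `V_{8 p^i}` is in the socle of `V'`;
* `Fra.e11` : structure for the pattern `[1,1], [4], [8], [8]`;
* `Fra.q11` : structure for the pattern `[], [2], [4], [8], [8]`.
-/

set_option autoImplicit false
set_option linter.unusedSectionVars false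

namespace Cfsg.Agent.R2.H28.SL2

open Matrix Cfsg.Agent.H943.SL2Rel Cfsg.Agent.H943.SL2Mod Cfsg.Agent.H943.RepAdd
open Cfsg.Lie
open Cfsg.Agent.ChevalleyStructure Cfsg.Agent.ChevalleyStructure.E6Form.Cubic
  Cfsg.Agent.ChevalleyStructure.E6Form.Table
open Cfsg.Agent.ChevalleyStructure.E6Min.Basic (Zgrp)
open Cfsg.Agent.H952.F4 (sh cr tf)
open Cfsg.Agent.H952.F4.Jord
open Cfsg.Agent.R2.GEO (Pair crB crB_apply tfB tfB_apply)
open Cfsg.Agent.R2.SL2 (typ tyl coe_tyl typ_step typ_zero listE6 tyl_eq_nil mem_typ tyl_one tyl_two)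
open Cfsg.Agent.R2.H22.Loc (Nts Ch exists_ch four_sh_ne not_inSoc_two not_inSoc_pair four_w four_u)

universe u v w

section General

variable {k : Type u} [Field k] [DecidableEq k] {F : Type w} [Field F] [Fintype F] [DecidableEq F] (ι : F →+* k)
variable (p : ℕ) [Fact p.Prime] [CharP k p] [CharP F p] [IsAlgClosed k] {a : ℕ} (hF : Fintype.card F = p ^ a)
variable {V : Type v} [AddCommGroup V] [Module k V] [FiniteDimensional k V]
  {ρ : Representation k (SpecialLinearGroup (Fin 2) F) V} {V' : Type v} [AddCommGroup V'] [Module k V']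
  [FiniteDimensional k V'] {ρ' : Representation k (SpecialLinearGroup (Fin 2) F) V'} {P : V →ₗ[k] V' →ₗ[k] k}

/-- **uniqueness of a submodule `V_c`** : if `V_b` would be a summand of `V / (V_c ⊕ V_c)` -/
theorem uniq_of_split (D : Dul ρ ρ' P) {b c : ℕ} (hb : ¬ InSoc ι p ρ' b) (hbc : b ≠ c)
    (h1 : (cf (Sy.{u, v, w} ι p) ρ).count b = 1) (h2 : (cf (Sy.{u, v, w} ι p) ρ).count c ≤ 2)
    (hE : ∀ d ∈ cf (Sy.{u, v, w} ι p) ρ, d ≠ b → d ≠ c → Ext0 (Sy.{u, v, w} ι p) d b ∧ Ext0 (Sy.{u, v, w} ι p) b d)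
    {X₁ X₂ : Submodule k V} (hX₁ : ∀ g, ∀ x ∈ X₁, ρ g x ∈ X₁) (hX₂ : ∀ g, ∀ x ∈ X₂, ρ g x ∈ X₂)
    (hc₁ : IsV ι p (subRep ρ X₁ hX₁) c) (hc₂ : IsV ι p (subRep ρ X₂ hX₂) c) : X₁ = X₂ := by
  rcases hc₁.inf_or_le ι p hX₂ with h3 | h3
  swap
  · -- equal dimensions
    refine Submodule.eq_of_le_of_finrank_eq h3 ?_
    rw [hc₁.finrank ι, hc₂.finrank ι]
  exfalso
  have hi : ∀ g, ∀ x ∈ X₁ ⊔ X₂, ρ g x ∈ X₁ ⊔ X₂ := by
    intro g x hx
    obtain ⟨y, hy, z, hz, rfl⟩ := Submodule.mem_sup.1 hx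
    rw [map_add]
    exact Submodule.add_mem_sup (hX₁ g y hy) (hX₂ g z hz)
  -- the factors of the sum
  have hsum : cf (Sy.{u, v, w} ι p) (subRep ρ (X₁ ⊔ X₂) hi) = {c, c} := by
    have hcm : ∀ {X : Submodule k V} (hX : ∀ g, ∀ x ∈ X, ρ g x ∈ X) (hle : X ≤ X₁ ⊔ X₂) (_ : IsV ι p (subRep ρ X hX) c),
        ∃ hX' : ∀ g, ∀ x ∈ X.comap (X₁ ⊔ X₂).subtype, subRep ρ (X₁ ⊔ X₂) hi g x ∈ X.comap (X₁ ⊔ X₂).subtype,
        IsV ι p (subRep (subRep ρ (X₁ ⊔ X₂) hi) (X.comap (X₁ ⊔ X₂).subtype) hX') c := by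
      intro X hX hle hc
      refine ⟨fun g x hx => hX g _ hx, ?_⟩
      refine IsV.iso ι p (Submodule.comapSubtypeEquivOfLe hle).symm (fun g x => ?_) hc
      rfl
    obtain ⟨hY₁, hV₁⟩ := hcm hX₁ le_sup_left hc₁
    obtain ⟨hY₂, hV₂⟩ := hcm hX₂ le_sup_right hc₂
    have hcomp : IsCompl (X₁.comap (X₁ ⊔ X₂).subtype) (X₂.comap (X₁ ⊔ X₂).subtype) := by
      rw [isCompl_iff, disjoint_iff, codisjoint_iff]
      constructor
      · rw [← Submodule.comap_inf, h3, eq_bot_iff]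
        intro x hx
        exact Subtype.ext hx
      · rw [eq_top_iff]
        rintro ⟨x, hx⟩ -
        obtain ⟨y, hy, z, hz, rfl⟩ := Submodule.mem_sup.1 hx
        have h4 : (⟨y + z, hx⟩ : ↥(X₁ ⊔ X₂)) = ⟨y, le_sup_left (a := X₁) hy⟩ + ⟨z, le_sup_right (a := X₁) hz⟩ := rfl
        rw [h4]
        exact Submodule.add_mem_sup hy hz
    rw [cf_sup (S := Sy.{u, v, w} ι p) hY₁ hY₂ hcomp, cf_irr (Sy.{u, v, w} ι p) hV₁, cf_irr (Sy.{u, v, w} ι p) hV₂]
    rfl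
  have hadd := cf_add (Sy.{u, v, w} ι p) ρ (X₁ ⊔ X₂) hi
  rw [hsum] at hadd
  have hcnt : (cf (Sy.{u, v, w} ι p) (quotRep ρ (X₁ ⊔ X₂) hi)).count b = 1 := by
    rw [hadd, Multiset.count_add] at h1
    have h4 : ({c, c} : Multiset ℕ).count b = 0 := by
      rw [Multiset.count_eq_zero]
      simp only [Multiset.insert_eq_cons, Multiset.mem_cons, Multiset.mem_singleton]
      tauto
    omega
  have hcc : c ∉ cf (Sy.{u, v, w} ι p) (quotRep ρ (X₁ ⊔ X₂) hi) := by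
    rw [hadd, Multiset.count_add] at h2
    have h4 : ({c, c} : Multiset ℕ).count c = 2 := by
      rw [Multiset.insert_eq_cons, Multiset.count_cons_self, Multiset.count_singleton_self]
    rw [← Multiset.count_eq_zero]
    omega
  obtain ⟨Z, T, hZ, hT, hcomp, hZb, -⟩ := split_one ι p (quotRep ρ (X₁ ⊔ X₂) hi) hcnt fun d hd hdb =>
    hE d (Multiset.mem_of_le (cf_quot_le (Sy.{u, v, w} ι p) ρ _ hi) hd) hdb fun h => hcc (by rw [← h]; exact hd)
  obtain ⟨B', D', -⟩ := D.quot hi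
  have h5 := compl_inSoc ι p D' hZ hT hcomp hZb
  exact hb (h5.iso ι p (orth P (X₁ ⊔ X₂)).subtype (fun _ _ => rfl) (orth P (X₁ ⊔ X₂)).injective_subtype)

end General

section Frame

variable {k : Type u} [Field k] [DecidableEq k] [IsAlgClosed k] {K : Type w} [Field K] [Fintype K] [DecidableEq K]
  (ι : K →+* k) {p a : ℕ} [Fact p.Prime] [CharP k p] [CharP K p]
  {ψ : SpecialLinearGroup (Fin 2) K →* ↥(Zgrp k)} {ρ ρ' : Representation k ↥(Zgrp k) (I27 → k)}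

/-- **the product of the highest weight vectors of `V_{4 p^i}`** -/
theorem Fra.soc_eight (f : Fra p a ψ ρ ρ') (hp11 : 11 ≤ p) (ha : 2 ≤ a) (nts : Nts ψ ρ) (nts' : Nts ψ ρ') {i : ℕ}
    (hi : i < a) (h4 : InSoc ι p (Rr ρ ψ) (4 * p ^ i)) : InSoc ι p (Rr ρ' ψ) (8 * p ^ i) := by
  have hp : p.Prime := Fact.out
  have hpa : p ^ 2 ≤ p ^ a := Nat.pow_le_pow_right (by omega) ha
  have hpp : 121 ≤ p ^ a := le_trans (by nlinarith) hpa
  obtain ⟨X, hX, hb⟩ := h4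
  obtain ⟨v₀, hv₀⟩ := hb.basS ι p (by omega)
  obtain ⟨v, c, hsp⟩ := exists_chn ι p hX (by omega : 4 < p) hb
  have hvX : ∀ s, v s ∈ X := by
    intro s
    rcases Nat.lt_or_ge 4 s with hs | hs
    · rw [c.zero s hs]
      exact X.zero_mem
    · rw [← hsp]
      exact Submodule.subset_span ⟨⟨s, by omega⟩, rfl⟩
  have hc : Ch ι p (Rr ρ ψ) 4 i v := ⟨c.zero, c.u, c.h, c.w⟩
  have h9 : 9 ≤ Fintype.card K := by rw [f.card]; omega
  have hne := four_sh_ne f (by omega) h9 nts nts' hc (c.ne 0 (by norm_num))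
  have hU : ∀ t, Rr ρ' ψ (u t) (cr (v 4) (v 4)) = cr (v 4) (v 4) := by
    intro t
    rw [Rr_apply, ← pair_cr f.pair, (four_u hc t).2.2.2.2]
  have hH : ∀ b, Rr ρ' ψ (h b) (cr (v 4) (v 4)) = ι b ^ (8 * p ^ i) • cr (v 4) (v 4) := by
    intro b
    have h1 := hc.h 4 le_rfl b
    rw [Rr_apply] at h1
    rw [Rr_apply, ← pair_cr f.pair, h1, Cfsg.Agent.H952.F4.Jord.cr_smul_left, Cfsg.Agent.H952.F4.Jord.cr_smul_right,
      smul_smul, Nat.sub_self, pow_zero, mul_one, ← pow_add, ← pow_mul, mul_comm (p ^ i)]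
  -- the factors of the span of the products
  have hle := cf_Im ι f hX
  rw [cf_sq_single ι p f.card (by omega) hi hb] at hle
  have e : sqs p a i 4 = one p a i 8 + (one p a i 4 + {0}) := rfl
  have e' : sqs p a i 4 = {8 * p ^ i, 4 * p ^ i, 0} := by
    rw [e]
    unfold one
    rw [if_pos (by omega), if_pos (by omega)]
    rfl
  rw [e'] at hle
  have hpi : 0 < p ^ i := Nat.pow_pos hp.pos
  have h8 : 8 * p ^ i < p ^ a - 1 := by
    have h2 : p ^ (i + 1) ≤ p ^ a := Nat.pow_le_pow_right (by omega) (by omega)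
    rw [pow_succ] at h2
    have h3 : p ^ i * 11 ≤ p ^ i * p := Nat.mul_le_mul_left _ hp11
    omega
  obtain ⟨b, hbI, hbm⟩ := mem_cf_of_hw ι p (ρ := subRep (Rr ρ' ψ) (Im X) (Im_inv f hX)) (e := 8 * p ^ i)
    (x := ⟨cr (v 4) (v 4), cr_mem_Im (hvX 4) (hvX 4)⟩) (fun h0 => hne (congrArg Subtype.val h0))
    (fun t => Subtype.ext (hU t)) (fun b => Subtype.ext (hH b))
  have hmem : ∀ d ∈ cf (Sy.{u, u, w} ι p) (subRep (Rr ρ' ψ) (Im X) (Im_inv f hX)), d = 8 * p ^ i ∨ d = 4 * p ^ i ∨ d = 0 := by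
    intro d hd
    have h1 := Multiset.mem_of_le hle hd
    simpa only [Multiset.insert_eq_cons, Multiset.mem_cons, Multiset.mem_singleton] using h1
  have hb8 : b = 8 * p ^ i := by
    rw [f.card, Nat.mod_eq_of_lt h8] at hbm
    rcases hmem b hbI with h | h | h
    · exact h
    · rw [h, Nat.mod_eq_of_lt (by omega)] at hbm
      omega
    · rw [h, Nat.zero_mod] at hbm
      omega
  subst hb8
  have hcnt : (cf (Sy.{u, u, w} ι p) (subRep (Rr ρ' ψ) (Im X) (Im_inv f hX))).count (8 * p ^ i) = 1 := by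
    have h1 := Multiset.count_le_of_le (8 * p ^ i) hle
    have h2 : ({8 * p ^ i, 4 * p ^ i, 0} : Multiset ℕ).count (8 * p ^ i) = 1 := by
      rw [Multiset.insert_eq_cons, Multiset.insert_eq_cons, Multiset.count_cons_self, Multiset.count_eq_zero_of_notMem]
      simp only [Multiset.mem_cons, Multiset.mem_singleton]
      omega
    have h3 := Multiset.one_le_count_iff_mem.2 hbI
    omega
  obtain ⟨Z, T, hZ, hT, -, hZb, -⟩ := split_one ι p (subRep (Rr ρ' ψ) (Im X) (Im_inv f hX)) hcnt fun d hd hne => by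
    rcases hmem d hd with h | h | h
    · exact absurd h hne
    · rw [h]
      exact ⟨ext0_same ι p f.card (by omega) (by omega) (by omega) hi (by omega),
        ext0_same ι p f.card (by omega) (by omega) (by omega) hi (by omega)⟩
    · rw [h]
      have h1 := ext0_same ι p f.card (by omega) (n := 8) (m := 0) (i := i) (by omega) (by omega) hi (by omega)
      have h2 := ext0_same ι p f.card (by omega) (n := 0) (m := 8) (i := i) (by omega) (by omega) hi (by omega)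
      rw [zero_mul] at h1 h2
      exact ⟨h2, h1⟩
  have h5 : InSoc ι p (subRep (Rr ρ' ψ) (Im X) (Im_inv f hX)) (8 * p ^ i) := ⟨Z, hZ, hZb⟩
  exact h5.iso ι p (Im X).subtype (fun _ _ => rfl) (Im X).injective_subtype

/-- the structure of `V` for `p = 11` -/
structure S11 (ρ : Representation k (SpecialLinearGroup (Fin 2) K) (I27 → k)) (m : ℕ) (R : Multiset ℕ) : Prop where
  soc8 : InSoc ι p ρ (8 * p ^ m)
  uniq : ∀ (X₁ X₂ : Submodule k (I27 → k)) (hX₁ : ∀ g, ∀ x ∈ X₁, ρ g x ∈ X₁) (hX₂ : ∀ g, ∀ x ∈ X₂, ρ g x ∈ X₂),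
    IsV ι p (subRep ρ X₁ hX₁) (8 * p ^ m) → IsV ι p (subRep ρ X₂ hX₂) (8 * p ^ m) → X₁ = X₂
  compl : ∃ (C : Submodule k (I27 → k)) (Y : Submodule k (I27 → k)) (hC : ∀ g, ∀ x ∈ C, ρ g x ∈ C)
    (hY : ∀ g, ∀ x ∈ Y, ρ g x ∈ Y), IsCompl C Y ∧ IsV ι p (subRep ρ C hC) (4 * p ^ m) ∧
      cf (Sy.{u, u, w} ι p) (subRep ρ Y hY) = {8 * p ^ m, 8 * p ^ m} + R

theorem single_inj {p n i j : ℕ} (hp : 1 < p) (hn : 0 < n) (h : n * p ^ i = n * p ^ j) : i = j :=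
  Nat.pow_right_injective hp (Nat.eq_of_mul_eq_mul_left hn h)

/-- the pattern `[1,1], [4], [8], [8]` : the labels, up to the positions -/
theorem Fra.e11_lab (f : Fra p a ψ ρ ρ') {W : List (List ℕ)} (hW : W = [[1, 1], [4], [8], [8]])
    (hw : (W : Multiset (List ℕ)) = (cf (Sy.{u, u, w} ι p) (Rr ρ ψ)).map (tyl p)) :
    ∃ i₁ < a, ∃ i₂ < a, i₁ ≠ i₂ ∧ ∃ j < a, ∃ m₁ < a, ∃ m₂ < a, cf (Sy.{u, u, w} ι p) (Rr ρ ψ) =
      (p ^ i₁ + p ^ i₂) ::ₘ (4 * p ^ j) ::ₘ (8 * p ^ m₁) ::ₘ {8 * p ^ m₂} := by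
  have hlt := cf_lt ι p f.card (Rr ρ ψ)
  have e : (W : Multiset (List ℕ)) = [1, 1] ::ₘ [4] ::ₘ [8] ::ₘ [8] ::ₘ 0 := by
    rw [hW]
    rfl
  rw [e] at hw
  obtain ⟨b₁, s₁, hs₁, ht₁, hw⟩ := map_cons_inv _ hw
  obtain ⟨b₂, s₂, hs₂, ht₂, hw⟩ := map_cons_inv _ hw
  obtain ⟨b₃, s₃, hs₃, ht₃, hw⟩ := map_cons_inv _ hw
  obtain ⟨b₄, s₄, hs₄, ht₄, hw⟩ := map_cons_inv _ hw
  have hs5 : s₄ = 0 := Multiset.map_eq_zero.1 hw.symm
  subst hs5 hs₄ hs₃ hs₂
  obtain ⟨i₁, hi₁, i₂, hi₂, h12, rfl⟩ := tyl_pair_inv ht₁ (hlt b₁ (by rw [hs₁]; simp)) (by norm_num) (by norm_num)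
  obtain ⟨j, hj, rfl⟩ := tyl_single_inv ht₂ (hlt b₂ (by rw [hs₁]; simp)) (by norm_num)
  obtain ⟨m₁, hm₁, rfl⟩ := tyl_single_inv ht₃ (hlt b₃ (by rw [hs₁]; simp)) (by norm_num)
  obtain ⟨m₂, hm₂, rfl⟩ := tyl_single_inv ht₄ (hlt b₄ (by rw [hs₁]; simp)) (by norm_num)
  rw [one_mul, one_mul] at hs₁
  exact ⟨i₁, hi₁, i₂, hi₂, h12, j, hj, m₁, hm₁, m₂, hm₂, hs₁⟩

/-- the positions -/
theorem Fra.e11_cf (f : Fra p a ψ ρ ρ') (hp11 : p = 11) (ha : 2 ≤ a) (nts : Nts ψ ρ) (nts' : Nts ψ ρ')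
    {W : List (List ℕ)} (hW : W = [[1, 1], [4], [8], [8]])
    (hw : (W : Multiset (List ℕ)) = (cf (Sy.{u, u, w} ι p) (Rr ρ ψ)).map (tyl p)) :
    ∃ m < a, cf (Sy.{u, u, w} ι p) (Rr ρ ψ) =
      (p ^ m + p ^ ((m + 1) % a)) ::ₘ (4 * p ^ m) ::ₘ (8 * p ^ m) ::ₘ {8 * p ^ m} ∧
      InSoc ι p (Rr ρ ψ) (8 * p ^ m) ∧ InSoc ι p (Rr ρ' ψ) (8 * p ^ m) := by
  have hp : p.Prime := Fact.out
  obtain ⟨i₁, hi₁, i₂, hi₂, h12, j, hj, m₁, hm₁, m₂, hm₂, hcf⟩ := f.e11_lab ι hW hw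
  set B := p ^ i₁ + p ^ i₂ with hB
  have tB : tyl p B = [1, 1] := by
    have h := tyl_pair (p := p) (n := 1) (m := 1) (by norm_num) (by omega) (by norm_num) (by omega) h12
    rwa [one_mul, one_mul] at h
  have t4 : tyl p (4 * p ^ j) = [4] := tyl_single (by norm_num) (by omega) j
  have t8 : ∀ m, tyl p (8 * p ^ m) = [8] := fun m => tyl_single (by norm_num) (by omega) m
  have hB4 : B ≠ 4 * p ^ j := fun h => by rw [h, t4] at tB; simp at tB
  have hB8 : ∀ m, B ≠ 8 * p ^ m := fun m h => by rw [h, t8] at tB; simp at tB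
  have h48 : ∀ m, 4 * p ^ j ≠ 8 * p ^ m := fun m h => by rw [h, t8] at t4; simp at t4
  have hcf' : cf (Sy.{u, u, w} ι p) (Rr ρ' ψ) = B ::ₘ (4 * p ^ j) ::ₘ (8 * p ^ m₁) ::ₘ {8 * p ^ m₂} := by
    rw [f.cf_eq ι, hcf]
  have nB : ¬ InSoc ι p (Rr ρ ψ) B := not_inSoc_pair f (by omega) nts nts' h12 hi₁ hi₂
  have nB' : ¬ InSoc ι p (Rr ρ' ψ) B := not_inSoc_pair f.swap (by omega) nts' nts h12 hi₁ hi₂
  have hmem : ∀ d ∈ cf (Sy.{u, u, w} ι p) (Rr ρ ψ), d = B ∨ d = 4 * p ^ j ∨ d = 8 * p ^ m₁ ∨ d = 8 * p ^ m₂ := by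
    intro d hd
    rw [hcf] at hd
    simpa only [Multiset.mem_cons, Multiset.mem_singleton] using hd
  have hsm : ∀ d ∈ cf (Sy.{u, u, w} ι p) (Rr ρ ψ), tyl p d = [p - 3] ∨ ∀ e ∈ tyl p d, e < p - 3 := by
    intro d hd
    rcases hmem d hd with h | h | h | h
    · rw [h, tB, hp11]
      decide
    · rw [h, t4, hp11]
      decide
    · rw [h, t8, hp11]
      decide
    · rw [h, t8, hp11]
      decide
  -- the neighbours
  have key : ∀ (s : Multiset ℕ), s = {8 * p ^ m₁, 8 * p ^ m₂} → 1 < (s.map (nb p a)).count B →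
      nb p a (8 * p ^ m₁) = B ∧ nb p a (8 * p ^ m₂) = B := by
    rintro s rfl h
    rw [Multiset.insert_eq_cons, Multiset.map_cons, Multiset.map_singleton, Multiset.count_cons, Multiset.count_singleton] at h
    split_ifs at h with h1 h2 h2
    · exact ⟨h2.symm, h1.symm⟩
    all_goals omega
  have hx := extp_11 ι p f.card f.dul (by omega) ha hi₁ hi₂ h12 nB nB' (by rw [hcf]; exact Multiset.mem_cons_self _ _) hsm
  have hfil : (cf (Sy.{u, u, w} ι p) (Rr ρ ψ)).filter (fun d => tyl p d = [p - 3]) = {8 * p ^ m₁, 8 * p ^ m₂} := by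
    rw [hcf, Multiset.filter_cons_of_neg _ (by rw [tB]; simp), Multiset.filter_cons_of_neg _ (by rw [t4, hp11]; simp),
      Multiset.filter_cons_of_pos _ (by rw [t8, hp11]), Multiset.filter_eq_self.2]
    · rfl
    · intro d hd
      rw [Multiset.mem_singleton.1 hd, t8, hp11]
  have hcB : (cf (Sy.{u, u, w} ι p) (Rr ρ ψ)).count B = 1 := by
    rw [hcf, Multiset.count_cons_self, Multiset.count_eq_zero_of_notMem]
    simp only [Multiset.mem_cons, Multiset.mem_singleton]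
    have h1 := hB8 m₁
    have h2 := hB8 m₂
    tauto
  rw [hcB, hfil] at hx
  obtain ⟨hn₁, hn₂⟩ := key _ rfl hx
  rw [nb_single p (by norm_num) (by omega)] at hn₁ hn₂
  -- `V_{4 p^j}` is in both socles
  have hc4 : (cf (Sy.{u, u, w} ι p) (Rr ρ ψ)).count (4 * p ^ j) = 1 := by
    rw [hcf, Multiset.count_cons_of_ne hB4.symm, Multiset.count_cons_self, Multiset.count_eq_zero_of_notMem]
    simp only [Multiset.mem_cons, Multiset.mem_singleton]
    have h1 := h48 m₁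
    have h2 := h48 m₂
    tauto
  have hE : ∀ d ∈ cf (Sy.{u, u, w} ι p) (Rr ρ ψ), d ≠ 4 * p ^ j → Ext0 (Sy.{u, u, w} ι p) d (4 * p ^ j) ∧ Ext0 (Sy.{u, u, w} ι p) (4 * p ^ j) d := by
    have h8 : ∀ m < a, Ext0 (Sy.{u, u, w} ι p) (8 * p ^ m) (4 * p ^ j) ∧ Ext0 (Sy.{u, u, w} ι p) (4 * p ^ j) (8 * p ^ m) := by
      intro m hm
      by_cases hmj : m = j
      · subst hmj
        exact ⟨ext0_same ι p f.card (by omega) (by omega) (by omega) hm (by omega),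
          ext0_same ι p f.card (by omega) (by omega) (by omega) hm (by omega)⟩
      · exact ⟨ext0_diff ι p f.card (by omega) (by omega) (by omega) hmj hm hj (by omega) (by omega),
          ext0_diff ι p f.card (by omega) (by omega) (by omega) (Ne.symm hmj) hj hm (by omega) (by omega)⟩
    intro d hd hne
    have hlB : B < p ^ a := cf_lt ι p f.card (Rr ρ ψ) B (by rw [hcf]; exact Multiset.mem_cons_self _ _)
    rcases hmem d hd with h | h | h | h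
    · rw [h]
      have h9 : ∀ l, B / p ^ l % p + 4 * p ^ j / p ^ l % p < p - 2 := by
        intro l
        rw [hB, dg_pair p hp.one_lt h12, dg_single hp.one_lt (show 4 < p by omega)]
        split_ifs <;> omega
      exact ⟨ext0_digits ι p f.card (by omega) ha (single_lt p (by omega) hj) hlB fun l _ => h9 l,
        ext0_digits ι p f.card (by omega) ha hlB (single_lt p (by omega) hj) fun l _ => by rw [add_comm]; exact h9 l⟩
    · exact absurd h hne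
    · rw [h]
      exact h8 m₁ hm₁
    · rw [h]
      exact h8 m₂ hm₂
  have s4 : InSoc ι p (Rr ρ ψ) (4 * p ^ j) := by
    obtain ⟨X, Y, hX, hY, -, hV, -⟩ := split_one ι p (Rr ρ ψ) hc4 hE
    exact ⟨X, hX, hV⟩
  have s4' : InSoc ι p (Rr ρ' ψ) (4 * p ^ j) := by
    obtain ⟨X, Y, hX, hY, -, hV, -⟩ := split_one ι p (Rr ρ' ψ) (b := 4 * p ^ j) (by rw [f.cf_eq ι]; exact hc4)
      (by rw [f.cf_eq ι]; exact hE)
    exact ⟨X, hX, hV⟩
  have s8' := f.soc_eight ι (by omega) ha nts nts' hj s4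
  have s8 := f.swap.soc_eight ι (by omega) ha nts' nts hj s4'
  -- the positions
  have h8m := s8.mem_cf
  have hj12 : j = m₁ ∨ j = m₂ := by
    rcases hmem _ h8m with h | h | h | h
    · exact absurd h.symm (hB8 j)
    · have := t8 j
      rw [h, t4] at this
      simp at this
    · exact Or.inl (single_inj hp.one_lt (by norm_num) h)
    · exact Or.inr (single_inj hp.one_lt (by norm_num) h)
  have hmm : m₁ = m₂ := by
    by_contra hne
    -- `V_{8 p^j}` has multiplicity one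
    have h88 : 8 * p ^ m₁ ≠ 8 * p ^ m₂ := fun h => hne (single_inj hp.one_lt (by norm_num) h)
    have hc8 : (cf (Sy.{u, u, w} ι p) (Rr ρ ψ)).count (8 * p ^ j) = 1 := by
      rw [hcf, Multiset.count_cons_of_ne (hB8 j).symm, Multiset.count_cons_of_ne (fun h => by
        have := t8 j
        rw [h, t4] at this
        simp at this)]
      rcases hj12 with rfl | rfl
      · rw [Multiset.count_cons_self, Multiset.count_singleton, if_neg h88]
      · rw [Multiset.count_cons_of_ne h88.symm, Multiset.count_singleton_self]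
    obtain ⟨X, hX, hV⟩ := s8
    obtain ⟨Kc, hK, hXK, hbK⟩ := exists_compl_of_both ι p f.dul hX hV s8' hc8
    obtain ⟨P', D', -⟩ := f.dul.quot hX
    have q1 : ¬ InSoc ι p (quotRep (Rr ρ ψ) X hX) B := fun h => nB
      ((inSoc_quot ι p hX hK hXK h).iso ι p Kc.subtype (fun _ _ => rfl) Kc.injective_subtype)
    have q2 : ¬ InSoc ι p (subRep (Rr ρ' ψ) (orth (tfB k) X) (f.dul.orth_inv hX)) B := fun h => nB'
      (h.iso ι p (orth (tfB k) X).subtype (fun _ _ => rfl) (orth (tfB k) X).injective_subtype)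
    have hadd := cf_add (Sy.{u, u, w} ι p) (Rr ρ ψ) X hX
    rw [cf_irr (Sy.{u, u, w} ι p) hV, Multiset.singleton_add] at hadd
    -- the factors of the quotient
    obtain ⟨m', hm', hqcf⟩ : ∃ m', m' < a ∧ cf (Sy.{u, u, w} ι p) (quotRep (Rr ρ ψ) X hX) = B ::ₘ (4 * p ^ j) ::ₘ {8 * p ^ m'} := by
      rcases hj12 with rfl | rfl
      · refine ⟨m₂, hm₂, ?_⟩
        rw [hcf] at hadd
        have h1 : B ::ₘ (4 * p ^ j) ::ₘ (8 * p ^ j) ::ₘ {8 * p ^ m₂} = 8 * p ^ j ::ₘ (B ::ₘ (4 * p ^ j) ::ₘ {8 * p ^ m₂}) := by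
          rw [Multiset.cons_swap (8 * p ^ j) B, Multiset.cons_swap (8 * p ^ j) (4 * p ^ j)]
        rw [h1, Multiset.cons_inj_right] at hadd
        exact hadd.symm
      · refine ⟨m₁, hm₁, ?_⟩
        rw [hcf] at hadd
        have h1 : B ::ₘ (4 * p ^ j) ::ₘ (8 * p ^ m₁) ::ₘ {8 * p ^ j} = 8 * p ^ j ::ₘ (B ::ₘ (4 * p ^ j) ::ₘ {8 * p ^ m₁}) := by
          rw [Multiset.cons_swap (8 * p ^ j) B, Multiset.cons_swap (8 * p ^ j) (4 * p ^ j)]
          congr 2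
          exact Multiset.cons_swap _ _ _
        rw [h1, Multiset.cons_inj_right] at hadd
        exact hadd.symm
    have hx' := extp_11 ι p f.card D' (by omega) ha hi₁ hi₂ h12 q1 q2 (by rw [hqcf]; exact Multiset.mem_cons_self _ _)
      (fun d hd => hsm d (Multiset.mem_of_le (cf_quot_le (Sy.{u, u, w} ι p) _ X hX) hd))
    have hfil' : (cf (Sy.{u, u, w} ι p) (quotRep (Rr ρ ψ) X hX)).filter (fun d => tyl p d = [p - 3]) = {8 * p ^ m'} := by
      rw [hqcf, Multiset.filter_cons_of_neg _ (by rw [tB]; simp), Multiset.filter_cons_of_neg _ (by rw [t4, hp11]; simp),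
        Multiset.filter_eq_self.2]
      intro d hd
      rw [Multiset.mem_singleton.1 hd, t8, hp11]
    rw [hfil', Multiset.map_singleton, Multiset.count_singleton, hqcf, Multiset.count_cons_self] at hx'
    split_ifs at hx' <;> omega
  subst hmm
  have hjm : j = m₁ := by tauto
  subst hjm
  refine ⟨j, hj, ?_, s8, s8'⟩
  rw [hcf, ← hn₁]

theorem Fra.s11_e (f : Fra p a ψ ρ ρ') (hp11 : p = 11) (ha : 2 ≤ a) (nts : Nts ψ ρ) (nts' : Nts ψ ρ')
    {m : ℕ} (hm : m < a) (hcf : cf (Sy.{u, u, w} ι p) (Rr ρ ψ) =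
      (p ^ m + p ^ ((m + 1) % a)) ::ₘ (4 * p ^ m) ::ₘ (8 * p ^ m) ::ₘ {8 * p ^ m})
    (s8 : InSoc ι p (Rr ρ ψ) (8 * p ^ m)) : S11 ι (p := p) (Rr ρ ψ) m {p ^ m + p ^ ((m + 1) % a)} := by
  have hp : p.Prime := Fact.out
  have h12 := succ_mod_ne ha hm
  have hm' : (m + 1) % a < a := Nat.mod_lt _ (by omega)
  obtain ⟨B, hB⟩ : ∃ B, B = p ^ m + p ^ ((m + 1) % a) := ⟨_, rfl⟩
  rw [← hB] at hcf ⊢
  have tB : tyl p B = [1, 1] := by
    have h := tyl_pair (p := p) (n := 1) (m := 1) (by norm_num) (by omega) (by norm_num) (by omega) h12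
    rwa [one_mul, one_mul, ← hB] at h
  have t4 : tyl p (4 * p ^ m) = [4] := tyl_single (by norm_num) (by omega) m
  have t8 : tyl p (8 * p ^ m) = [8] := tyl_single (by norm_num) (by omega) m
  have hB4 : B ≠ 4 * p ^ m := fun h => by rw [h, t4] at tB; simp at tB
  have hB8 : B ≠ 8 * p ^ m := fun h => by rw [h, t8] at tB; simp at tB
  have h48 : 4 * p ^ m ≠ 8 * p ^ m := fun h => by rw [h, t8] at t4; simp at t4
  have nB' : ¬ InSoc ι p (Rr ρ' ψ) B := by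
    rw [hB]
    exact not_inSoc_pair f.swap (by omega) nts' nts h12 hm hm'
  have hmem : ∀ d ∈ cf (Sy.{u, u, w} ι p) (Rr ρ ψ), d = B ∨ d = 4 * p ^ m ∨ d = 8 * p ^ m ∨ d = 8 * p ^ m := by
    intro d hd
    rw [hcf] at hd
    simpa only [Multiset.mem_cons, Multiset.mem_singleton] using hd
  have hlB : B < p ^ a := cf_lt ι p f.card (Rr ρ ψ) B (by rw [hcf]; exact Multiset.mem_cons_self _ _)
  have h9 : ∀ l, B / p ^ l % p + 4 * p ^ m / p ^ l % p < p - 2 := by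
    intro l
    rw [hB, dg_pair p hp.one_lt h12, dg_single hp.one_lt (show 4 < p by omega)]
    split_ifs <;> omega
  have e1 : Ext0 (Sy.{u, u, w} ι p) B (4 * p ^ m) :=
    ext0_digits ι p f.card (by omega) ha (single_lt p (by omega) hm) hlB fun l _ => h9 l
  have e2 : Ext0 (Sy.{u, u, w} ι p) (4 * p ^ m) B :=
    ext0_digits ι p f.card (by omega) ha hlB (single_lt p (by omega) hm) fun l _ => by rw [add_comm]; exact h9 l
  have e3 : Ext0 (Sy.{u, u, w} ι p) (8 * p ^ m) (4 * p ^ m) :=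
    ext0_same ι p f.card (by omega) (by omega) (by omega) hm (by omega)
  have e4 : Ext0 (Sy.{u, u, w} ι p) (4 * p ^ m) (8 * p ^ m) :=
    ext0_same ι p f.card (by omega) (by omega) (by omega) hm (by omega)
  refine ⟨s8, fun X₁ X₂ hX₁ hX₂ h1 h2 => ?_, ?_⟩
  · refine uniq_of_split ι p f.dul nB' hB8 ?_ ?_ ?_ hX₁ hX₂ h1 h2
    · rw [hcf, Multiset.count_cons_self, Multiset.count_eq_zero_of_notMem]
      simp only [Multiset.mem_cons, Multiset.mem_singleton]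
      tauto
    · rw [hcf, Multiset.count_cons_of_ne hB8.symm, Multiset.count_cons_of_ne h48.symm, Multiset.count_cons_self,
        Multiset.count_singleton_self]
    · intro d hd h3 h4
      rcases hmem d hd with h | h | h | h
      · exact absurd h h3
      · rw [h]
        exact ⟨e2, e1⟩
      · exact absurd h h4
      · exact absurd h h4
  · have hc4 : (cf (Sy.{u, u, w} ι p) (Rr ρ ψ)).count (4 * p ^ m) = 1 := by
      rw [hcf, Multiset.count_cons_of_ne hB4.symm, Multiset.count_cons_self, Multiset.count_eq_zero_of_notMem]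
      simp only [Multiset.mem_cons, Multiset.mem_singleton]
      tauto
    obtain ⟨X, Y, hX, hY, hc, hV, hYcf⟩ := split_one ι p (Rr ρ ψ) hc4 fun d hd h3 => by
      rcases hmem d hd with h | h | h | h
      · rw [h]
        exact ⟨e1, e2⟩
      · exact absurd h h3
      · rw [h]
        exact ⟨e3, e4⟩
      · rw [h]
        exact ⟨e3, e4⟩
    refine ⟨X, Y, hX, hY, hc, hV, ?_⟩
    rw [hYcf, hcf, Multiset.cons_swap, Multiset.erase_cons_head]
    show _ = (8 * p ^ m) ::ₘ {8 * p ^ m} + {B}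
    rw [← Multiset.singleton_add B, add_comm]

/-- **the pattern `[1,1], [4], [8], [8]`** -/
theorem Fra.e11 (f : Fra p a ψ ρ ρ') (hp11 : p = 11) (ha : 2 ≤ a) (nts : Nts ψ ρ) (nts' : Nts ψ ρ')
    {W : List (List ℕ)} (hW : W = [[1, 1], [4], [8], [8]])
    (hw : (W : Multiset (List ℕ)) = (cf (Sy.{u, u, w} ι p) (Rr ρ ψ)).map (tyl p)) :
    ∃ m < a, cf (Sy.{u, u, w} ι p) (Rr ρ ψ) =
      (p ^ m + p ^ ((m + 1) % a)) ::ₘ (4 * p ^ m) ::ₘ (8 * p ^ m) ::ₘ {8 * p ^ m} ∧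
      S11 ι (p := p) (Rr ρ ψ) m {p ^ m + p ^ ((m + 1) % a)} ∧ S11 ι (p := p) (Rr ρ' ψ) m {p ^ m + p ^ ((m + 1) % a)} := by
  obtain ⟨m, hm, hcf, h1, h2⟩ := f.e11_cf ι hp11 ha nts nts' hW hw
  exact ⟨m, hm, hcf, f.s11_e ι hp11 ha nts nts' hm hcf h1, f.swap.s11_e ι hp11 ha nts' nts hm (by rw [f.cf_eq ι]; exact hcf) h2⟩

theorem Fra.s11_q (f : Fra p a ψ ρ ρ') (hp11 : p = 11) (ha : a = 1) (nts : Nts ψ ρ) (nts' : Nts ψ ρ')
    (hcf : cf (Sy.{u, u, w} ι p) (Rr ρ ψ) = 0 ::ₘ (2 * p ^ 0) ::ₘ (4 * p ^ 0) ::ₘ (8 * p ^ 0) ::ₘ {8 * p ^ 0}) :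
    S11 ι (p := p) (Rr ρ ψ) 0 {0, 2 * p ^ 0} := by
  have hp : p.Prime := Fact.out
  have hmem : ∀ d ∈ cf (Sy.{u, u, w} ι p) (Rr ρ ψ), d = 0 ∨ d = 2 * p ^ 0 ∨ d = 4 * p ^ 0 ∨ d = 8 * p ^ 0 ∨ d = 8 * p ^ 0 := by
    intro d hd
    rw [hcf] at hd
    simpa only [Multiset.mem_cons, Multiset.mem_singleton] using hd
  have n0' : ¬ InSoc ι p (Rr ρ' ψ) 0 := fun h => f.swap.soc_ne_zero ι h rfl
  have n0 : ¬ InSoc ι p (Rr ρ ψ) 0 := fun h => f.soc_ne_zero ι h rfl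
  have n2 : ¬ InSoc ι p (Rr ρ ψ) (2 * p ^ 0) := not_inSoc_two f (by omega) (by rw [f.card, ha, hp11]; norm_num) nts nts' 0
  have es : ∀ {n m : ℕ}, n + m < 8 → Ext0 (Sy.{u, u, w} ι p) (n * p ^ 0) (m * p ^ 0) := fun {n m} h =>
    ext0_same ι p f.card (by omega) (by omega) (by omega) (by omega) (Or.inr (by omega))
  have e84 : Ext0 (Sy.{u, u, w} ι p) (8 * p ^ 0) (4 * p ^ 0) := by
    rw [pow_zero, mul_one, mul_one]
    refine ext0_one ι p f.card ha ?_ ?_ ?_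
    · subst hp11
      decide
    · subst hp11
      decide
    · intro j h1 h2
      subst hp11
      have : j ≤ 10 := h2
      interval_cases j <;> decide
  have e48 := ext0_symm ι p e84
  have ez : ∀ {n : ℕ}, n < 8 → Ext0 (Sy.{u, u, w} ι p) (n * p ^ 0) 0 ∧ Ext0 (Sy.{u, u, w} ι p) 0 (n * p ^ 0) := by
    intro n hn
    have h1 := es (n := n) (m := 0) (by omega)
    have h2 := es (n := 0) (m := n) (by omega)
    rw [zero_mul] at h1 h2
    exact ⟨h1, h2⟩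
  have hpow : p ^ 0 = 1 := pow_zero p
  have hc4 : (cf (Sy.{u, u, w} ι p) (Rr ρ ψ)).count (4 * p ^ 0) = 1 := by
    rw [hcf, hpow]
    decide
  obtain ⟨X, Y, hX, hY, hc, hV, hYcf⟩ := split_one ι p (Rr ρ ψ) hc4 fun d hd h3 => by
    rcases hmem d hd with h | h | h | h | h
    · rw [h]
      exact ⟨(ez (by norm_num)).2, (ez (by norm_num)).1⟩
    · rw [h]
      exact ⟨es (by norm_num), es (by norm_num)⟩
    · exact absurd h h3
    · rw [h]
      exact ⟨e84, e48⟩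
    · rw [h]
      exact ⟨e84, e48⟩
  have hYcf' : cf (Sy.{u, u, w} ι p) (subRep (Rr ρ ψ) Y hY) = {8 * p ^ 0, 8 * p ^ 0} + {0, 2 * p ^ 0} := by
    rw [hYcf, hcf, hpow]
    decide
  refine ⟨?_, fun X₁ X₂ hX₁ hX₂ h1 h2 => ?_, X, Y, hX, hY, hc, hV, hYcf'⟩
  · have hY0 : Y ≠ ⊥ := by
      rintro rfl
      have h8 : cf (Sy.{u, u, w} ι p) (subRep (Rr ρ ψ) ⊥ hY) = 0 := cf_zero _ _
      rw [h8, hpow] at hYcf'
      revert hYcf'
      decide
    obtain ⟨c, hc1, hc2⟩ := exists_inSoc_sub ι p hY hY0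
    have h1 := hc1.mem_cf
    rw [hYcf'] at h1
    simp only [Multiset.insert_eq_cons, Multiset.mem_add, Multiset.mem_cons, Multiset.mem_singleton] at h1
    rcases h1 with (h1 | h1) | h1 | h1
    · rwa [h1] at hc2
    · rwa [h1] at hc2
    · rw [h1] at hc2
      exact absurd hc2 n0
    · rw [h1] at hc2
      exact absurd hc2 n2
  · refine uniq_of_split ι p f.dul n0' ?_ ?_ ?_ ?_ hX₁ hX₂ h1 h2
    · rw [hpow]
      decide
    · rw [hcf, hpow]
      decide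
    · rw [hcf, hpow]
      decide
    · intro d hd h3 h4
      rcases hmem d hd with h | h | h | h | h
      · exact absurd h h3
      · rw [h]
        exact ez (by norm_num)
      · rw [h]
        exact ez (by norm_num)
      · exact absurd h h4
      · exact absurd h h4

/-- **the pattern `[], [2], [4], [8], [8]`**, `q = 11` -/
theorem Fra.q11 (f : Fra p a ψ ρ ρ') (hp11 : p = 11) (ha : a = 1) (nts : Nts ψ ρ) (nts' : Nts ψ ρ')
    {W : List (List ℕ)} (hW : W = [[], [2], [4], [8], [8]])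
    (hw : (W : Multiset (List ℕ)) = (cf (Sy.{u, u, w} ι p) (Rr ρ ψ)).map (tyl p)) :
    cf (Sy.{u, u, w} ι p) (Rr ρ ψ) = 0 ::ₘ (2 * p ^ 0) ::ₘ (4 * p ^ 0) ::ₘ (8 * p ^ 0) ::ₘ {8 * p ^ 0} ∧
      S11 ι (p := p) (Rr ρ ψ) 0 {0, 2 * p ^ 0} ∧ S11 ι (p := p) (Rr ρ' ψ) 0 {0, 2 * p ^ 0} := by
  have hlt := cf_lt ι p f.card (Rr ρ ψ)
  have e : (W : Multiset (List ℕ)) = [] ::ₘ [2] ::ₘ [4] ::ₘ [8] ::ₘ [8] ::ₘ 0 := by
    rw [hW]
    rfl
  rw [e] at hw
  obtain ⟨b₀, s₀, hs₀, ht₀, hw⟩ := map_cons_inv _ hw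
  obtain ⟨b₁, s₁, hs₁, ht₁, hw⟩ := map_cons_inv _ hw
  obtain ⟨b₂, s₂, hs₂, ht₂, hw⟩ := map_cons_inv _ hw
  obtain ⟨b₃, s₃, hs₃, ht₃, hw⟩ := map_cons_inv _ hw
  obtain ⟨b₄, s₄, hs₄, ht₄, hw⟩ := map_cons_inv _ hw
  have hs5 : s₄ = 0 := Multiset.map_eq_zero.1 hw.symm
  subst hs5 hs₄ hs₃ hs₂ hs₁
  have key : ∀ b n, 0 < n → b ∈ cf (Sy.{u, u, w} ι p) (Rr ρ ψ) → tyl p b = [n] → b = n * p ^ 0 := by
    intro b n hn hb ht
    obtain ⟨i, hi, rfl⟩ := tyl_single_inv ht (hlt b hb) hn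
    have hi0 : i = 0 := by omega
    rw [hi0]
  have k1 := key b₁ 2 (by norm_num) (by rw [hs₀]; simp) ht₁
  have k2 := key b₂ 4 (by norm_num) (by rw [hs₀]; simp) ht₂
  have k3 := key b₃ 8 (by norm_num) (by rw [hs₀]; simp) ht₃
  have k4 := key b₄ 8 (by norm_num) (by rw [hs₀]; simp) ht₄
  have k0 := tyl_eq_nil.1 ht₀
  rw [k0, k1, k2, k3, k4] at hs₀
  have hs₀' : cf (Sy.{u, u, w} ι p) (Rr ρ ψ) = 0 ::ₘ (2 * p ^ 0) ::ₘ (4 * p ^ 0) ::ₘ (8 * p ^ 0) ::ₘ {8 * p ^ 0} := hs₀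
  exact ⟨hs₀', f.s11_q ι hp11 ha nts nts' hs₀', f.swap.s11_q ι hp11 ha nts' nts (by rw [f.cf_eq ι]; exact hs₀')⟩

end Frame

end Cfsg.Agent.R2.H28.SL2
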