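import Cfsg.Agent.R2.H28.SL2.ExtH
import Cfsg.Agent.R2.H28.SL2.Typ
import Cfsg.Agent.R2.H28.SL2.TK

/-!
# Extensions between the modules `V_{n p^i}` (helper28)

* `ext0_digits` : `a ≥ 2`, small digits;
* `ext0_same`, `ext0_diff` : labels `n p^i`, `m p^j`;
* `ext0_one` : a criterion for `a = 1`.
-/

set_option autoImplicit false
set_option linter.unusedSectionVars false

namespace Cfsg.Agent.R2.H28.SL2

open Matrix Cfsg.Agent.H943.SL2Rel Cfsg.Agent.H943.SL2Mod Cfsg.Agent.H943.RepAdd
open Cfsg.Agent.H179.SLC (Z1 cob fx ker_cob cob_apply mem_Z1)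
open Cfsg.Agent.R2.SL2 (typ tyl coe_tyl typ_step typ_zero listE6 tyl_eq_nil mem_typ tyl_one tyl_two)

universe u v w

variable {k : Type u} [Field k] [DecidableEq k] {F : Type w} [Field F] [Fintype F] [DecidableEq F] (ι : F →+* k)
variable (p : ℕ) [Fact p.Prime] [CharP k p] [CharP F p] [IsAlgClosed k] {a : ℕ} (hF : Fintype.card F = p ^ a)

include hF in
/-- small digits -/
theorem ext0_digits (hp2 : p ≠ 2) (ha : 2 ≤ a) {b c : ℕ} (hb : b < p ^ a) (hc : c < p ^ a)
    (h : ∀ i < a, c / p ^ i % p + b / p ^ i % p < p - 2) : Ext0 (Sy.{u, v, w} ι p) c b := by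
  have hp : p.Prime := Fact.out
  have hov : ∀ i < a, c / p ^ i % p + b / p ^ i % p < p := fun i hi => by
    have := h i hi
    omega
  exact ext0_of_Hs ι p hF (cg p a c b) (fun d hd => (mem_cg hp.pos a hov hd).1)
    (fun z hz => cs_cg k p a hc hb hov (hz.ne_zero (two_le_q p hF))) (Hs_cg_eq_zero hp hp2 ha h)

theorem hb_zero_of_typ (hp5 : 5 ≤ p) {b : ℕ} (hb' : b < p ^ a) (h : tyl p b ≠ hty p a) : hb p a b = 0 := by
  have h1 := hb_le_typ (p := p) hp5 hb' (ne_nine p hp5 a)
  rw [if_neg h] at h1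
  omega

theorem hty_two (ha : 2 ≤ a) : hty p a = [1, p - 2] := by
  unfold hty
  rw [if_neg (by omega)]

theorem hb_single (hp5 : 5 ≤ p) {n i : ℕ} (hn : n < p) (hi : i < a) (h : 2 ≤ a ∨ n ≠ p - 3) :
    hb p a (n * p ^ i) = 0 := by
  have hp : p.Prime := Fact.out
  refine hb_zero_of_typ p hp5 (single_lt p hn hi) ?_
  rcases Nat.eq_zero_or_pos n with rfl | hn0
  · rw [zero_mul, tyl_eq_nil.2 rfl]
    unfold hty
    split_ifs <;> simp
  · rw [tyl_single hn0 hn]
    unfold hty
    split_ifs with h1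
    · intro h2
      have h3 : n = p - 3 := by simpa using h2
      omega
    · simp

theorem hb_pair (hp5 : 5 ≤ p) (ha : 2 ≤ a) {n m i j : ℕ} (hn : n < p) (hm : m < p) (hij : i ≠ j) (hi : i < a) (hj : j < a)
    (h : ¬ (n = 1 ∧ m = p - 2)) (h' : ¬ (m = 1 ∧ n = p - 2)) : hb p a (n * p ^ i + m * p ^ j) = 0 := by
  have hp : p.Prime := Fact.out
  refine hb_zero_of_typ p hp5 (pair_lt p hn hm hij hi hj) ?_
  rcases Nat.eq_zero_or_pos n with rfl | hn0
  · rw [zero_mul, zero_add]
    rcases Nat.eq_zero_or_pos m with rfl | hm0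
    · rw [zero_mul, tyl_eq_nil.2 rfl, hty_two p ha]
      simp
    · rw [tyl_single hm0 hm, hty_two p ha]
      simp
  rcases Nat.eq_zero_or_pos m with rfl | hm0
  · rw [zero_mul, add_zero, tyl_single hn0 hn, hty_two p ha]
    simp
  rw [hty_two p ha]
  rcases le_total n m with h1 | h1
  · rw [tyl_pair hn0 hn h1 hm hij]
    intro h2
    simp only [List.cons.injEq, and_true] at h2
    exact h h2
  · rw [tyl_pair' hm0 hm h1 hn hij]
    intro h2
    simp only [List.cons.injEq, and_true] at h2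
    exact h' h2

include hF in
/-- labels at different places -/
theorem ext0_diff (hp5 : 5 ≤ p) {n m i j : ℕ} (hn : n < p) (hm : m < p) (hij : i ≠ j) (hi : i < a) (hj : j < a)
    (h : ¬ (n = 1 ∧ m = p - 2)) (h' : ¬ (m = 1 ∧ n = p - 2)) : Ext0 (Sy.{u, v, w} ι p) (n * p ^ i) (m * p ^ j) := by
  refine ext0_of_Hs ι p hF {n * p ^ i + m * p ^ j} (fun d hd => ?_) (fun z hz => ?_) ?_
  · rw [Multiset.mem_singleton] at hd
    rw [hd]
    exact pair_lt p hn hm hij hi hj
  · rw [cs_singleton, chB_pair k p hn hm hij, chB_single k p hn, chB_single k p hm]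
  · refine Hs_eq_zero fun d hd => ?_
    rw [Multiset.mem_singleton] at hd
    rw [hd]
    exact hb_pair p hp5 (by omega) hn hm hij hi hj h h'

/-- the factors of `V_{n p^i} ⊗ V_{m p^i}` -/
def cls (p a i n m : ℕ) : Multiset ℕ := (Multiset.range (min n m + 1)).bind fun j => one p a i (n + m - 2 * j)

include hF in
theorem cs_cls {n m i : ℕ} (hn : n < p) (hm : m < p) (hi : i < a) {z : ℂ} (hz : Zs (p ^ a) z) :
    cs k (cls p a i n m) z = chi n (z ^ p ^ i) * chi m (z ^ p ^ i) := by
  have hz0 := pow_ne_zero (p ^ i) (hz.ne_zero (two_le_q p hF))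
  unfold cls
  rw [cs_bind, chi_mul' n m hz0, Finset.sum_eq_multiset_sum]
  rw [Finset.range_val]
  congr 1
  refine Multiset.map_congr rfl fun j hj => ?_
  rw [Multiset.mem_range] at hj
  exact cs_one p hF hi (by omega) hz

include hF in
/-- labels at the same place -/
theorem ext0_same (hp5 : 5 ≤ p) {n m i : ℕ} (hn : n < p) (hm : m < p) (hi : i < a)
    (h : (2 ≤ a ∧ n + m < 2 * p - 2) ∨ n + m < p - 3) : Ext0 (Sy.{u, v, w} ι p) (n * p ^ i) (m * p ^ i) := by
  have hp : p.Prime := Fact.out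
  refine ext0_of_Hs ι p hF (cls p a i n m) (fun d hd => ?_) (fun z hz => ?_) ?_
  · obtain ⟨j, hj, hd⟩ := Multiset.mem_bind.1 hd
    exact one_lt' p hi (by omega) d hd
  · rw [cs_cls p hF hn hm hi hz, chB_single k p hn, chB_single k p hm]
  · refine Hs_eq_zero fun d hd => ?_
    obtain ⟨j, hj, hd⟩ := Multiset.mem_bind.1 hd
    unfold one at hd
    split_ifs at hd with h1
    · rw [Multiset.mem_singleton] at hd
      rw [hd]
      exact hb_single p hp5 h1 hi (by omega)
    · rcases h with h | h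
      · unfold ov at hd
        rw [if_neg (by omega), Multiset.insert_eq_cons, Multiset.mem_cons, Multiset.mem_singleton] at hd
        rcases hd with hd | hd
        · have h2 := hb_pair (a := a) p hp5 h.1 (n := n + m - 2 * j - p) (m := 1) (by omega) hp.one_lt
            (succ_mod_ne h.1 hi) hi (Nat.mod_lt _ (by omega)) (by omega) (by omega)
          rw [one_mul] at h2
          rw [hd]
          exact h2
        · rw [hd]
          exact hb_single p hp5 (by omega) hi (Or.inl h.1)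
      · omega

/-- **the criterion for `a = 1`** -/
theorem ext0_one {a : ℕ} (hF : Fintype.card F = p ^ a) (ha : a = 1) {c b : ℕ}
    (h1 : b + 1 < p → (c + 2 * (b + 1)) % (p - 1) ≠ b % (p - 1)) (h2 : (b + c) % (p - 1) ≠ 0)
    (h3 : ∀ j, c < j → j ≤ p - 1 → (2 * j) % (p - 1) ≠ (b + c) % (p - 1)) : Ext0 (Sy.{u, v, w} ι p) c b := by
  intro V _ _ _ ρ W hW hb hc
  have hp : p.Prime := Fact.out
  have hq := one_lt (F := F)
  subst ha
  rw [pow_one] at hF
  obtain ⟨Q, hQ⟩ : ∃ Q, Q = Fintype.card F - 1 := ⟨_, rfl⟩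
  have hpa : p - 1 = Q := by omega
  have hmem : ∀ z : V, W.mkQ z = 0 → z ∈ W := fun z hz => (Submodule.Quotient.mk_eq_zero W).1 hz
  obtain ⟨m, hm0, hmu, hmh, hmS, hmD, hmf, -⟩ := IsV.hw2 ι p hc
  obtain ⟨x₀, hx₀⟩ := W.mkQ_surjective m
  have hblt : b < p := by
    have := cf_lt ι p (a := 1) (by rw [pow_one]; exact hF) (subRep ρ W hW) b (by
      rw [cf_irr (Sy.{u, v, w} ι p) hb]
      exact Multiset.mem_singleton_self _)
    rwa [pow_one] at this
  have hclt : c < p := by
    have := cf_lt ι p (a := 1) (by rw [pow_one]; exact hF) (quotRep ρ W hW) c (by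
      rw [cf_irr (Sy.{u, v, w} ι p) hc]
      exact Multiset.mem_singleton_self _)
    rwa [pow_one] at this
  obtain ⟨x, hx, hxu, hxh⟩ := lift_one ι p ρ W hW (a := 1) (by rw [pow_one]; exact hF) hb (c := c) (fun i hi hlt => by
      have hi0 : i = 0 := by omega
      subst hi0
      unfold en
      rw [pow_zero, Nat.div_one, Nat.mod_eq_of_lt hblt] at hlt ⊢
      rw [mul_one, pow_one]
      exact h1 hlt) (x := x₀)
    (fun t => hmem _ (by rw [map_sub, ← quotRep_mk ρ W hW, hx₀, hmu, sub_self]))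
    (fun a => hmem _ (by rw [map_sub, ← quotRep_mk ρ W hW, hx₀, hmh, map_smul, hx₀, sub_self]))
  have hxm : W.mkQ x = m := by
    have h1 : W.mkQ (x - x₀) = 0 := (Submodule.Quotient.mk_eq_zero W).2 hx
    rw [map_sub, sub_eq_zero] at h1
    rw [h1, hx₀]
  have hwx : ∀ a, ρ (h a) (ρ w x) = ι (a : F) ^ ((Fintype.card F - 1 - 1) * c) • ρ w x := by
    intro a
    rw [apply_mul, h_w, ← apply_mul, hxh, map_smul, inv_pow_eq]
  have hcc : ((Fintype.card F - 1 - 1) * c + c) % Q = 0 := by
    have h1 : (Fintype.card F - 1 - 1) * c + c = Q * c := by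
      rw [← Nat.succ_mul]
      congr 1
      omega
    rw [h1, Nat.mul_mod_right]
  have hcfW : ∀ b' ∈ cf (Sy.{u, v, w} ι p) (subRep ρ W hW), b' = b := by
    intro b' hb'
    have h3 : cf (Sy.{u, v, w} ι p) (subRep ρ W hW) = {b} := cf_irr _ hb
    rw [h3, Multiset.mem_singleton] at hb'
    exact hb'
  -- the second condition
  have hS : SS ρ x = cb k F c • x := by
    rw [← sub_eq_zero]
    by_contra hne
    have h1 : SS ρ x - cb k F c • x ∈ W := by
      apply hmem
      rw [map_sub, map_smul, hxm, sub_eq_zero, SS_apply, map_sum]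
      rw [SS_apply] at hmS
      have h3 : ∀ t : F, W.mkQ (ρ (u t) (ρ w x)) = quotRep ρ W hW (u t) (quotRep ρ W hW w m) := by
        intro t
        rw [← quotRep_mk ρ W hW, ← quotRep_mk ρ W hW, hxm]
      rw [Finset.sum_congr rfl fun t _ => h3 t]
      exact hmS
    obtain ⟨b', hb', hbe⟩ := mem_cf_of_hw (V := W) ι p (ρ := subRep ρ W hW) (e := (Fintype.card F - 1 - 1) * c)
      (x := ⟨_, h1⟩) (fun h0 => hne (congrArg Subtype.val h0)) (fun t => Subtype.ext (by
        show ρ (u t) (SS ρ x - cb k F c • x) = SS ρ x - cb k F c • x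
        rw [map_sub, map_smul, SS_u, hxu])) (fun a => Subtype.ext (by
        show ρ (h a) (SS ρ x - cb k F c • x) = ι a ^ ((Fintype.card F - 1 - 1) * c) • (SS ρ x - cb k F c • x)
        rw [map_sub, map_smul, SS_h, hxh, map_smul, inv_pow_eq, hxh, smul_sub]
        congr 1
        unfold cb
        by_cases hcq : c < Fintype.card F - 1
        · rw [if_pos hcq, zero_smul, zero_smul, smul_zero]
        · rw [if_neg hcq, smul_comm]
          have hcQ : c = Fintype.card F - 1 := by
            have := hc.choose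
            omega
          have e1 : ι (a : F) ^ c = 1 := by
            rw [hcQ]
            exact powQ ι a.ne_zero
          have e2 : ι (a : F) ^ ((Fintype.card F - 1 - 1) * c) = 1 := by
            rw [mul_comm, pow_mul, e1, one_pow]
          rw [e1, e2]))
    rw [hcfW b' hb'] at hbe
    apply h2
    rw [hpa, Nat.add_mod, hQ, hbe, ← Nat.add_mod]
    rw [hQ] at hcc
    exact hcc
  -- the third condition
  have hD : ∀ n j, c < j → j ≤ Q → Q ≤ j + n → Dm ι ρ j (ρ w x) = 0 := by
    intro n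
    induction n using Nat.strong_induction_on with
    | _ n ih =>
      intro j hj hjQ hjn
      by_contra hne
      have h1 : Dm ι ρ j (ρ w x) ∈ W := by
        apply hmem
        rw [Dm_comm ι ρ (quotRep ρ W hW) W.mkQ (fun g y => (quotRep_mk ρ W hW g y).symm), ← quotRep_mk ρ W hW, hxm]
        exact hmD j (by omega) (by omega) (by rw [Nat.choose_eq_zero_of_lt hj]; exact dvd_zero p)
      have hz : ∀ i ∈ Finset.Icc 1 Q, Dm ι ρ i (Dm ι ρ j (ρ w x)) = 0 := by
        intro i hi
        rw [Finset.mem_Icc] at hi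
        by_cases hij : i + j ≤ Q
        · rw [Dm_mul' ι ρ p (by rw [pow_one]; exact hF : Fintype.card F = p ^ 1) hi.1 (by omega) (by omega),
            ih (Q - (i + j)) (by omega) (i + j) (by omega) hij (by omega), smul_zero]
        · exact Dm_mul_zero ι ρ hi.1 (by omega) (by omega) (by omega) (by omega) _
      have hfix : ∀ t, ρ (u t) (Dm ι ρ j (ρ w x)) = Dm ι ρ j (ρ w x) := by
        intro t
        rw [u_eq ι ρ p t, ← hQ, Finset.sum_eq_zero fun i hi => by rw [hz i hi, smul_zero], add_zero]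
      obtain ⟨b', hb', hbe⟩ := mem_cf_of_hw (V := W) ι p (ρ := subRep ρ W hW) (e := 2 * j + (Fintype.card F - 1 - 1) * c)
        (x := ⟨_, h1⟩) (fun h0 => hne (congrArg Subtype.val h0)) (fun t => Subtype.ext (hfix t)) (fun a => Subtype.ext (by
          show ρ (h a) (Dm ι ρ j (ρ w x)) = ι a ^ (2 * j + (Fintype.card F - 1 - 1) * c) • Dm ι ρ j (ρ w x)
          rw [h_Dm ι ρ (by omega), hwx, map_smul, smul_smul, pow_add]))
      rw [hcfW b' hb', ← hQ] at hbe
      apply h3 j hj (by omega)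
      rw [hpa, Nat.add_mod b c, hbe, ← Nat.add_mod]
      rw [show 2 * j + (Q - 1) * c + c = 2 * j + ((Fintype.card F - 1 - 1) * c + c) by rw [hQ]; ring, Nat.add_mod (2 * j), hcc,
        Nat.add_zero, Nat.mod_mod]
  obtain ⟨f, hf, hfm⟩ := gen_hw ι p ρ (a := 1) (by rw [pow_one]; exact hF) hc hm0 hmu hxu hxh hS (fun i hi hlt => by
    have hi0 : i = 0 := by omega
    subst hi0
    unfold en
    rw [pow_zero, Nat.div_one, Nat.mod_eq_of_lt hclt] at hlt ⊢
    rw [mul_one]
    exact hD Q (c + 1) (by omega) (by omega) (by omega))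
  have hirr := hc.irr
  -- the section
  have hsec : ∀ z : V ⧸ W, W.mkQ (f z) = z := by
    have h1 := hirr.2 (LinearMap.eqLocus (W.mkQ ∘ₗ f) LinearMap.id) (by
      intro g z hz
      rw [LinearMap.mem_eqLocus] at hz ⊢
      have hz' : W.mkQ (f z) = z := hz
      show W.mkQ (f (quotRep ρ W hW g z)) = quotRep ρ W hW g z
      rw [hf]
      conv_rhs => rw [← hz', quotRep_mk])
    rcases h1 with h1 | h1
    · exfalso
      have h2 : m ∈ LinearMap.eqLocus (W.mkQ ∘ₗ f) LinearMap.id := by
        rw [LinearMap.mem_eqLocus]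
        show W.mkQ (f m) = m
        rw [hfm, hxm]
      rw [h1, Submodule.mem_bot] at h2
      exact hm0 h2
    · intro z
      have h2 : z ∈ LinearMap.eqLocus (W.mkQ ∘ₗ f) LinearMap.id := by rw [h1]; trivial
      exact h2
  refine ⟨LinearMap.range f, ?_, ?_⟩
  · rintro g _ ⟨y, rfl⟩
    exact ⟨_, hf g y⟩
  · rw [isCompl_iff, disjoint_iff, codisjoint_iff]
    constructor
    · rw [eq_bot_iff]
      rintro _ ⟨hx, y, rfl⟩
      have h1 := (Submodule.Quotient.mk_eq_zero W).2 hx
      have h2 : W.mkQ (f y) = 0 := h1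
      rw [hsec] at h2
      rw [h2, map_zero]
      exact Submodule.zero_mem _
    · rw [eq_top_iff]
      intro y _
      have h1 : y - f (W.mkQ y) ∈ W := by
        rw [← Submodule.Quotient.mk_eq_zero, ← Submodule.mkQ_apply, map_sub, hsec, sub_self]
      have h2 : y = (y - f (W.mkQ y)) + f (W.mkQ y) := by abel
      rw [h2]
      exact Submodule.add_mem_sup h1 ⟨_, rfl⟩

end Cfsg.Agent.R2.H28.SL2
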