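import Cfsg.Agent.R2.H22.P11
import Cfsg.Agent.R2.H28.SL2.Lcb

/-!
# The type kills in the frame (helper28)

`Fra.kills` : `p ≥ 5`, `q ≥ 9`; `Fra.kills7` : `q = 7`.
-/

set_option autoImplicit false
set_option linter.unusedSectionVars false

namespace Cfsg.Agent.R2.H28.SL2

open Matrix Cfsg.Agent.H943.SL2Rel Cfsg.Agent.H943.SL2Mod Cfsg.Agent.H943.RepAdd
open Cfsg.Lie
open Cfsg.Agent.ChevalleyStructure Cfsg.Agent.ChevalleyStructure.E6Form.Cubic
  Cfsg.Agent.ChevalleyStructure.E6Form.Table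
open Cfsg.Agent.ChevalleyStructure.E6Min.Basic (Zgrp)
open Cfsg.Agent.H952.F4 (sh cr tf)
open Cfsg.Agent.H952.F4.Jord
open Cfsg.Agent.R2.GEO (Pair crB crB_apply tfB tfB_apply)
open Cfsg.Agent.R2.SL2 (typ tyl coe_tyl typ_step typ_zero listE6 tyl_eq_nil mem_typ tyl_one tyl_two)
open Cfsg.Agent.R2.H22.Loc (Nts not_inSoc_pair)

universe u v w

variable {k : Type u} [Field k] [DecidableEq k] [IsAlgClosed k] {K : Type w} [Field K] [Fintype K] [DecidableEq K]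
  (ι : K →+* k) {p a : ℕ} [Fact p.Prime] [CharP k p] [CharP K p]
  {ψ : SpecialLinearGroup (Fin 2) K →* ↥(Zgrp k)} {ρ ρ' : Representation k ↥(Zgrp k) (I27 → k)}

/-- no invariant functionals -/
theorem Fra.co (f : Fra p a ψ ρ ρ') (l : (I27 → k) →ₗ[k] k) (hl : ∀ g x, l (Rr ρ ψ g x) = l x) : l = 0 := by
  obtain ⟨y, hy⟩ := f.dul.surj l
  have hy0 : y = 0 := by
    refine f.fix' y fun g => ?_
    rw [← sub_eq_zero]
    refine f.dul.right _ fun x => ?_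
    have h1 : Rr ρ ψ g (Rr ρ ψ g⁻¹ x) = x := by
      rw [← Module.End.mul_apply, ← map_mul, mul_inv_cancel, map_one, Module.End.one_apply]
    rw [map_sub, sub_eq_zero, hy]
    conv_lhs => rw [← h1]
    rw [f.dul.inv, hy, ← hl g, h1]
  ext x
  rw [LinearMap.comp_apply, ← hy, hy0, map_zero]
  rfl

variable {W : List (List ℕ)}

/-- **the type kills in the frame** -/
theorem Fra.kills (f : Fra p a ψ ρ ρ') (hp5 : 5 ≤ p) (hq9 : 9 ≤ p ^ a) (nts : Nts ψ ρ) (nts' : Nts ψ ρ')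
    (hWm : W ∈ listE6)
    (hw : (W : Multiset (List ℕ)) = (cf (Sy.{u, u, w} ι p) (Rr ρ ψ)).map (tyl p)) :
    (2 ≤ a ∧ W = [[2, 2], [2, 2], [2, 2]]) ∨ (13 ≤ p ∧ W = [[4], [8], [12]]) ∨
      (p = 11 ∧ 2 ≤ a ∧ W = [[1, 1], [4], [8], [8]]) ∨ (a = 1 ∧ p = 11 ∧ W = [[], [2], [4], [8], [8]]) :=
  type_kills ι p f.card f.dul
    (f.lc ι hp5 hq9 nts nts' fun _ hi _ hj hij => not_inSoc_pair f hp5 nts nts' hij hi hj)
    (f.swap.lc ι hp5 hq9 nts' nts fun _ hi _ hj hij => not_inSoc_pair f.swap hp5 nts' nts hij hi hj) hp5 hq9 f.fix f.co hWm hw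

/-- **`q = 7`** -/
theorem Fra.kills7 (f : Fra p a ψ ρ ρ') (hp7 : p = 7) (ha : a = 1) (hWm : W ∈ listE6)
    (hw : (W : Multiset (List ℕ)) = (cf (Sy.{u, u, w} ι p) (Rr ρ ψ)).map (tyl p)) :
    W = [[], [], [2], [4], [4], [4], [6]] ∨ W = [[2], [2], [2], [2], [2], [4], [6]] := by
  rcases no_trivial ι p f.card (by omega) (by rw [hp7, ha]; norm_num) f.fix f.co hWm hw with h0 | h0 | h0
  · have h1 : ∀ t ∈ W, t.length ≤ 1 ∧ ∀ d ∈ t, d < 7 := by
      intro t ht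
      have h2 : t ∈ (cf (Sy.{u, u, w} ι p) (Rr ρ ψ)).map (tyl p) := by
        rw [← hw]
        exact ht
      obtain ⟨b, hb, rfl⟩ := Multiset.mem_map.1 h2
      have h3 := cf_lt ι p f.card _ b hb
      refine ⟨?_, fun d hd => ?_⟩
      · have := Cfsg.Agent.R2.SL2.length_tyl_le h3
        omega
      · have := (Cfsg.Agent.R2.SL2.tyl_mem hd).2
        omega
    right
    have key : ∀ W ∈ listE6, [] ∉ W → (∀ t ∈ W, t.length ≤ 1) → (∀ t ∈ W, ∀ d ∈ t, d < 7) →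
        W = [[2], [2], [2], [2], [2], [4], [6]] := by decide +kernel
    exact key W hWm h0 (fun t ht => (h1 t ht).1) fun t ht => (h1 t ht).2
  · exact Or.inl h0.2.2
  · omega

end Cfsg.Agent.R2.H28.SL2
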