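import Cfsg.Agent.R2.H28.SL2.FinCf
import Cfsg.Agent.R2.H28.SL2.Bas

/-!
# Maps out of tensor products (helper28)

* `soc_of_map` : the submodules of the image of a homomorphism have labels in the source (any universe);
* `quad_zero` : a bilinear map on `A ⊗ B` symmetrised in both variables gives a map on `S² A ⊗ S² B`.
-/

set_option autoImplicit false
set_option linter.unusedSectionVars false

namespace Cfsg.Agent.R2.H28.SL2

open Matrix Cfsg.Agent.H943.SL2Rel Cfsg.Agent.H943.SL2Mod Cfsg.Agent.H943.RepAdd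
open scoped TensorProduct

universe u v w x

variable {k : Type u} [Field k] [DecidableEq k] {F : Type w} [Field F] [Fintype F] [DecidableEq F] (ι : F →+* k)
variable (p : ℕ) [Fact p.Prime] [CharP k p] [CharP F p] [IsAlgClosed k]

/-- **maps out of a module** -/
theorem soc_of_map {M : Type x} [AddCommGroup M] [Module k M] [FiniteDimensional k M]
    (σ : Representation k (SpecialLinearGroup (Fin 2) F) M) {V : Type v} [AddCommGroup V] [Module k V] [FiniteDimensional k V]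
    (ρ : Representation k (SpecialLinearGroup (Fin 2) F) V) (f : M →ₗ[k] V) (hf : ∀ g x, f (σ g x) = ρ g (f x))
    {W : Submodule k V} (hW : ∀ g, ∀ x ∈ W, ρ g x ∈ W) (hW0 : W ≠ ⊥) (hWf : W ≤ LinearMap.range f) :
    ∃ c ∈ cf (Sy.{u, x, w} ι p) σ, InSoc ι p (subRep ρ W hW) c ∧ InSoc ι p ρ c := by
  have : Nontrivial W := Submodule.nontrivial_iff_ne_bot.2 hW0
  obtain ⟨c, Y, hY, hc⟩ := exists_inSoc ι p (subRep ρ W hW)
  refine ⟨c, ?_, ⟨Y, hY, hc⟩, (show InSoc ι p (subRep ρ W hW) c from ⟨Y, hY, hc⟩).iso ι p W.subtype (fun _ _ => rfl) W.injective_subtype⟩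
  -- the preimage of `Y`
  obtain ⟨hY', e, he⟩ := eqv_map (subRep ρ W hW) ρ W.subtype (fun _ _ => rfl) W.injective_subtype Y hY
  have hZW : (Y.map W.subtype) ≤ LinearMap.range f := le_trans (by rintro _ ⟨y, _, rfl⟩; exact y.2) hWf
  have hN : ∀ g, ∀ y ∈ (Y.map W.subtype).comap f, σ g y ∈ (Y.map W.subtype).comap f := by
    intro g y hy
    show f (σ g y) ∈ (Y.map W.subtype)
    rw [hf]
    exact hY' g _ hy
  let fN : (Y.map W.subtype).comap f →ₗ[k] (Y.map W.subtype) := f.restrict fun _ h => h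
  have hfN : ∀ x, (fN x : V) = f x := fun _ => rfl
  have hs : Function.Surjective fN := by
    rintro ⟨z, hz⟩
    obtain ⟨y, rfl⟩ := hZW hz
    exact ⟨⟨y, hz⟩, rfl⟩
  have hK : ∀ g, ∀ x ∈ LinearMap.ker fN, subRep σ ((Y.map W.subtype).comap f) hN g x ∈ LinearMap.ker fN := by
    intro g x hx
    rw [LinearMap.mem_ker] at hx ⊢
    apply Subtype.ext
    show f (σ g x) = 0
    rw [hf]
    have h1 : f (x : M) = 0 := congrArg Subtype.val hx
    rw [h1, map_zero]
  obtain ⟨e', he', -⟩ := quot_iso (subRep σ ((Y.map W.subtype).comap f) hN) (subRep ρ (Y.map W.subtype) hY') fN (fun g x => Subtype.ext (hf g x)) hs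
    (LinearMap.ker fN) hK fun x => LinearMap.mem_ker.symm
  have h1 : IsV ι p (subRep ρ (Y.map W.subtype) hY') c := IsV.iso ι p e he hc
  have h2 : IsV ι p (quotRep (subRep σ ((Y.map W.subtype).comap f) hN) (LinearMap.ker fN) hK) c :=
    IsV.iso ι p e'.symm (fun g x => by rw [LinearEquiv.symm_apply_eq, he', LinearEquiv.apply_symm_apply]) h1
  have h3 := cf_quot_le (Sy.{u, x, w} ι p) (subRep σ ((Y.map W.subtype).comap f) hN) (LinearMap.ker fN) hK
  rw [cf_irr (Sy.{u, x, w} ι p) h2] at h3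
  exact Multiset.mem_of_le (le_trans h3 (cf_sub_le (Sy.{u, x, w} ι p) σ ((Y.map W.subtype).comap f) hN)) (Multiset.mem_singleton_self c)

/-- maps without common factors vanish -/
theorem map_eq_zero {M : Type x} [AddCommGroup M] [Module k M] [FiniteDimensional k M]
    (σ : Representation k (SpecialLinearGroup (Fin 2) F) M) {V : Type v} [AddCommGroup V] [Module k V] [FiniteDimensional k V]
    (ρ : Representation k (SpecialLinearGroup (Fin 2) F) V) (f : M →ₗ[k] V) (hf : ∀ g x, f (σ g x) = ρ g (f x))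
    (h : ∀ c ∈ cf (Sy.{u, x, w} ι p) σ, ¬ InSoc ι p ρ c) : f = 0 := by
  by_contra h0
  have hr : ∀ g, ∀ x ∈ LinearMap.range f, ρ g x ∈ LinearMap.range f := by
    rintro g _ ⟨x, rfl⟩
    exact ⟨_, hf g x⟩
  obtain ⟨c, hc1, -, hc2⟩ := soc_of_map ι p σ ρ f hf hr (fun h1 => h0 (LinearMap.range_eq_bot.1 h1)) le_rfl
  exact h c hc1 hc2

section Polar

variable {A : Type x} [AddCommGroup A] [Module k A] [FiniteDimensional k A] {B : Type x} [AddCommGroup B] [Module k B]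
  [FiniteDimensional k B] (σ : Representation k (SpecialLinearGroup (Fin 2) F) A)
  (τ : Representation k (SpecialLinearGroup (Fin 2) F) B) {V : Type v} [AddCommGroup V] [Module k V] [FiniteDimensional k V]
  (ρ : Representation k (SpecialLinearGroup (Fin 2) F) V)

/-- **symmetrised maps** -/
theorem quad_zero (β : A ⊗[k] B →ₗ[k] A ⊗[k] B →ₗ[k] V) (hs : ∀ x y, β x y = β y x)
    (he : ∀ g x y, β (σ.tprod τ g x) (σ.tprod τ g y) = ρ g (β x y))
    (h : ∀ c ∈ cf (Sy.{u, x, w} ι p) ((Sq σ).tprod (Sq τ)), ¬ InSoc ι p ρ c) (a a' : A) (b b' : B) :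
    β (a ⊗ₜ b) (a' ⊗ₜ b') + β (a ⊗ₜ b') (a' ⊗ₜ b) = 0 := by
  let G : (A ⊗[k] A) ⊗[k] (B ⊗[k] B) →ₗ[k] V :=
    TensorProduct.lift β ∘ₗ (TensorProduct.tensorTensorTensorComm k A A B B : _ →ₗ[k] _)
  have hG : ∀ a a' b b', G ((a ⊗ₜ a') ⊗ₜ (b ⊗ₜ b')) = β (a ⊗ₜ b) (a' ⊗ₜ b') := fun a a' b b' => rfl
  let G' : (A ⊗[k] A) ⊗[k] (B ⊗[k] B) →ₗ[k] V := G ∘ₗ
    TensorProduct.map LinearMap.id (TensorProduct.comm k B B : B ⊗[k] B →ₗ[k] B ⊗[k] B)
  have hG' : ∀ a a' b b', G' ((a ⊗ₜ a') ⊗ₜ (b ⊗ₜ b')) = β (a ⊗ₜ b') (a' ⊗ₜ b) := fun a a' b b' => rfl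
  let H1 : (A ⊗[k] A) →ₗ[k] (B ⊗[k] B) →ₗ[k] V := TensorProduct.curry (G + G')
  have hH1 : ∀ a a' b b', H1 (a ⊗ₜ a') (b ⊗ₜ b') = β (a ⊗ₜ b) (a' ⊗ₜ b') + β (a ⊗ₜ b') (a' ⊗ₜ b) := fun a a' b b' => rfl
  have hA : Alt k A ≤ LinearMap.ker H1 := by
    unfold Alt
    refine Submodule.span_le.2 ?_
    rintro _ ⟨x, y, rfl⟩
    show H1 (x ⊗ₜ y - y ⊗ₜ x) = 0
    refine TensorProduct.ext' fun b b' => ?_
    rw [map_sub, LinearMap.sub_apply, hH1, hH1, hs (y ⊗ₜ b), hs (y ⊗ₜ b'), LinearMap.zero_apply]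
    abel
  let H2 : ((A ⊗[k] A) ⧸ Alt k A) →ₗ[k] (B ⊗[k] B) →ₗ[k] V := (Alt k A).liftQ H1 hA
  have hH2 : ∀ a a' b b', H2 ((Alt k A).mkQ (a ⊗ₜ a')) (b ⊗ₜ b') = β (a ⊗ₜ b) (a' ⊗ₜ b') + β (a ⊗ₜ b') (a' ⊗ₜ b) :=
    fun a a' b b' => rfl
  have hB : Alt k B ≤ LinearMap.ker H2.flip := by
    unfold Alt
    refine Submodule.span_le.2 ?_
    rintro _ ⟨x, y, rfl⟩
    show H2.flip (x ⊗ₜ y - y ⊗ₜ x) = 0
    refine LinearMap.ext fun z => ?_
    obtain ⟨z, rfl⟩ := (Alt k A).mkQ_surjective z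
    rw [LinearMap.flip_apply, LinearMap.zero_apply]
    induction z using TensorProduct.induction_on with
    | zero => rw [map_zero, map_zero, LinearMap.zero_apply]
    | tmul a a' =>
      rw [map_sub, hH2, hH2]
      abel
    | add z z' hz hz' => rw [map_add, map_add, LinearMap.add_apply, hz, hz', add_zero]
  let H3 : ((B ⊗[k] B) ⧸ Alt k B) →ₗ[k] ((A ⊗[k] A) ⧸ Alt k A) →ₗ[k] V := (Alt k B).liftQ H2.flip hB
  let Ψ : ((A ⊗[k] A) ⧸ Alt k A) ⊗[k] ((B ⊗[k] B) ⧸ Alt k B) →ₗ[k] V := TensorProduct.lift H3.flip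
  have hΨ : ∀ a a' b b', Ψ (((Alt k A).mkQ (a ⊗ₜ a')) ⊗ₜ ((Alt k B).mkQ (b ⊗ₜ b'))) =
      β (a ⊗ₜ b) (a' ⊗ₜ b') + β (a ⊗ₜ b') (a' ⊗ₜ b) := fun a a' b b' => by
    show TensorProduct.lift H3.flip _ = _
    rw [TensorProduct.lift.tmul]
    rfl
  have hΨe : ∀ g z, Ψ ((Sq σ).tprod (Sq τ) g z) = ρ g (Ψ z) := by
    intro g z
    induction z using TensorProduct.induction_on with
    | zero => rw [map_zero, map_zero, map_zero]
    | tmul y z =>
      obtain ⟨y, rfl⟩ := (Alt k A).mkQ_surjective y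
      obtain ⟨z, rfl⟩ := (Alt k B).mkQ_surjective z
      rw [Representation.tprod_apply, TensorProduct.map_tmul]
      unfold Sq
      rw [quotRep_mk, quotRep_mk]
      induction y using TensorProduct.induction_on with
      | zero => rw [map_zero, map_zero, TensorProduct.zero_tmul, map_zero, TensorProduct.zero_tmul, map_zero, map_zero]
      | tmul a a' =>
        induction z using TensorProduct.induction_on with
        | zero => rw [map_zero, map_zero, TensorProduct.tmul_zero, map_zero, TensorProduct.tmul_zero, map_zero, map_zero]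
        | tmul b b' =>
          rw [Representation.tprod_apply, Representation.tprod_apply, TensorProduct.map_tmul, TensorProduct.map_tmul, hΨ, hΨ,
            map_add, ← he, ← he]
          rfl
        | add z z' hz hz' =>
          rw [map_add, map_add, TensorProduct.tmul_add, map_add, hz, hz', map_add, TensorProduct.tmul_add, map_add, map_add]
      | add y y' hy hy' =>
        rw [map_add, map_add, TensorProduct.add_tmul, map_add, hy, hy', map_add, TensorProduct.add_tmul, map_add, map_add]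
    | add y z hy hz => rw [map_add, map_add, map_add, map_add, hy, hz]
  have hΨ0 := map_eq_zero ι p _ ρ Ψ hΨe h
  rw [← hΨ a a' b b', hΨ0, LinearMap.zero_apply]

end Polar

end Cfsg.Agent.R2.H28.SL2
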